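import Cfsg.Agent.Lib.TwistedE6Five.Frames
import Mathlib.LinearAlgebra.Matrix.Transvection

/-!
The restriction to four root vectors permuted by the Levi factor `A₃` centralising the element of order five.
-/

set_option autoImplicit false
set_option maxRecDepth 100000
set_option linter.unusedSectionVars false

open Cfsg.Lie CfsgLib.Chevalley

namespace CfsgLib.TwistedE6Five

/-- Four by four matrices. -/
abbrev M4 (R : Type*) := Matrix (Fin 4) (Fin 4) R

theorem block_lt : ∀ j : Fin 4, block.getD j 0 < chevE6.nroots := by decide +kernel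

/-- The roots of the block. -/
def blk (j : Fin 4) : Fin chevE6.nroots := ⟨block.getD j 0, block_lt j⟩

theorem blk_injective : Function.Injective blk := by decide +kernel

/-- The position of a root of value zero in the transvections. -/
def trOf (r : ℕ) : Fin 72 × Fin 4 × Fin 4 :=
  (trPos.find? fun t => (t.1 : ℕ) == r).getD (0, 0, 0)

theorem trOf_spec : ∀ r ∈ psiAll, trOf r ∈ trPos ∧ ((trOf r).1 : ℕ) = r := by decide +kernel

theorem psiPos_sub : ∀ r ∈ psiPos, r ∈ psiAll ∧ r < chevE6.nroots := by decide +kernel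

/-- The transvection of a root of value zero. -/
def trM {R : Type*} [CommRing R] (r : ℕ) (t : R) : M4 R :=
  Matrix.transvection (trOf r).2.1 (trOf r).2.2 t

/-- The image of a product of positive roots of value zero. -/
def PU {R : Type*} [CommRing R] (w : Fin 6 → R) : M4 R :=
  ((List.finRange 6).map fun i : Fin 6 => trM (psiPos.getD (i : ℕ) 0) (w i)).prod

/-- The same in the reverse order. -/
def PRev {R : Type*} [CommRing R] (w : Fin 6 → R) : M4 R :=
  ((List.finRange 6).reverse.map fun i : Fin 6 => trM (psiPos.getD (i : ℕ) 0) (w i)).prod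

/-- The image of the monomial elements. -/
def PP (R : Type*) [Zero R] [One R] (k : Fin 24) : M4 R :=
  Matrix.of fun i j => if i = (stabBlock.getD (k : ℕ) []).getD (j : ℕ) 0 then 1 else 0

theorem psiPos_eq : psiPos = (List.finRange 6).map fun i : Fin 6 => psiPos.getD (i : ℕ) 0 := by decide +kernel

theorem vec6 (w : Fin 6 → ZMod 2) : w = ![w 0, w 1, w 2, w 3, w 4, w 5] := by
  funext i
  fin_cases i <;> rfl

theorem PU_rev_aux : ∀ a b c d e f : ZMod 2, PU ![a, b, c, d, e, f] * PRev ![a, b, c, d, e, f] = 1 := by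
  decide +kernel

/-- Upper triangularity. -/
def upperB (A : M4 (ZMod 2)) : Bool :=
  (List.finRange 4).all fun i => (List.finRange 4).all fun j => Nat.ble (i : ℕ) (j : ℕ) || A i j == 0

theorem upperB_spec {A : M4 (ZMod 2)} (h : upperB A = true) (i j : Fin 4) (hij : j < i) : A i j = 0 := by
  simp only [upperB, List.all_eq_true, Bool.or_eq_true, Nat.ble_eq, beq_iff_eq] at h
  exact (h i (List.mem_finRange i) j (List.mem_finRange j)).resolve_left (not_le.2 hij)

theorem PRev_upper : ∀ a b c d e f : ZMod 2, upperB (PRev ![a, b, c, d, e, f]) = true := by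
  decide +kernel

theorem PU_spec_aux : ∀ a b c d e f : ZMod 2, (∀ i : Fin 4, PU ![a, b, c, d, e, f] i i = 1) ∧
    (PU ![a, b, c, d, e, f] = 1 → a = 0 ∧ b = 0 ∧ c = 0 ∧ d = 0 ∧ e = 0 ∧ f = 0) := by
  decide +kernel

theorem PU_rev (w : Fin 6 → ZMod 2) : PU w * PRev w = 1 ∧ ∀ i j : Fin 4, j < i → PRev w i j = 0 := by
  rw [vec6 w]
  exact ⟨PU_rev_aux _ _ _ _ _ _, upperB_spec (PRev_upper _ _ _ _ _ _)⟩

theorem PU_spec (w : Fin 6 → ZMod 2) : (∀ i : Fin 4, PU w i i = 1) ∧ (PU w = 1 → ∀ i, w i = 0) := by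
  rw [vec6 w]
  obtain ⟨h1, h2⟩ := PU_spec_aux (w 0) (w 1) (w 2) (w 3) (w 4) (w 5)
  refine ⟨h1, fun h i => ?_⟩
  obtain ⟨a, b, c, d, e, f⟩ := h2 h
  fin_cases i <;> assumption

theorem mul_PP (A : M4 (ZMod 2)) (k : Fin 24) (i j : Fin 4) :
    (A * PP (ZMod 2) k) i j = A i ((stabBlock.getD (k : ℕ) []).getD (j : ℕ) 0) := by
  simp [Matrix.mul_apply, PP]

/-- The factorisation is only trivially trivial. -/
theorem eq_of_prod_one {tu tv : Fin 6 → ZMod 2} {k : Fin 24} (h : PU tu * PP (ZMod 2) k * PU tv = 1) : k = 0 := by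
  have e : PU tu * PP (ZMod 2) k = PRev tv := by
    calc PU tu * PP (ZMod 2) k = PU tu * PP (ZMod 2) k * (PU tv * PRev tv) := by rw [(PU_rev tv).1, mul_one]
      _ = _ := by rw [← mul_assoc, h, one_mul]
  refine stabBlock_fix k fun j => le_of_not_gt fun hj => ?_
  have h0 := (PU_rev tv).2 _ _ hj
  rw [← e, mul_PP, (PU_spec tu).1] at h0
  exact one_ne_zero h0

theorem PP_zero : PP (ZMod 2) 0 = 1 := by decide +kernel

variable {F : Type*} [Field F] [CharP F 2]

/-- The embedding of the field with two elements. -/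
noncomputable abbrev ι : ZMod 2 →+* F := ZMod.castHom dvd_rfl F

/-- Its action on matrices. -/
noncomputable abbrev mapM : M4 (ZMod 2) →+* M4 F := (ι (F := F)).mapMatrix

theorem map_trM (r : ℕ) (t : ZMod 2) : mapM (trM r t) = trM r (ι t : F) := by
  ext i j
  simp only [mapM, RingHom.mapMatrix_apply, Matrix.map_apply, trM, Matrix.transvection, Matrix.add_apply,
    Matrix.one_apply, Matrix.single_apply, map_add]
  split_ifs <;> simp

theorem map_PU (w : Fin 6 → ZMod 2) : mapM (F := F) (PU w) = PU fun i => ι (w i) := by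
  rw [PU, map_list_prod, List.map_map, PU]
  exact congrArg List.prod (List.map_congr_left fun i _ => map_trM _ _)

theorem map_PP (k : Fin 24) : mapM (F := F) (PP (ZMod 2) k) = PP F k := by
  ext i j
  simp only [mapM, RingHom.mapMatrix_apply, Matrix.map_apply, PP, Matrix.of_apply]
  split_ifs <;> simp

/-- The restriction to the block. -/
def res (a : M F) : M4 F :=
  Matrix.of fun i j => (a : Matrix chevE6.Idx chevE6.Idx F) (Sum.inr (blk i)) (Sum.inr (blk j))

/-- The block is preserved. -/
def Pres (a : M F) : Prop :=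
  ∀ (j : Fin 4) (x : chevE6.Idx), (∀ i, x ≠ Sum.inr (blk i)) →
    (a : Matrix chevE6.Idx chevE6.Idx F) x (Sum.inr (blk j)) = 0

theorem sum_block {f : chevE6.Idx → F} (hf : ∀ x, (∀ i, x ≠ Sum.inr (blk i)) → f x = 0) :
    ∑ x, f x = ∑ i, f (Sum.inr (blk i)) := by
  classical
  rw [← Finset.sum_subset (Finset.subset_univ ((Finset.univ : Finset (Fin 4)).image fun i => Sum.inr (blk i)))
    fun x _ hx => hf x fun i e => hx (Finset.mem_image.2 ⟨i, Finset.mem_univ i, e.symm⟩)]
  exact Finset.sum_image fun a _ b _ e => blk_injective (Sum.inr_injective e)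

theorem res_one : res (1 : M F) = 1 := by
  ext i j
  simp [res, Matrix.one_apply, blk_injective.eq_iff]

theorem pres_one : Pres (1 : M F) := fun j x hx => by
  rw [Units.val_one, Matrix.one_apply_ne (hx j)]

theorem res_mul {a b : M F} (hb : Pres b) : res (a * b) = res a * res b := by
  ext i j
  simp only [res, Matrix.of_apply, Units.val_mul, Matrix.mul_apply]
  exact sum_block fun x hx => by rw [hb j x hx, mul_zero]

theorem pres_mul {a b : M F} (ha : Pres a) (hb : Pres b) : Pres (a * b) := fun j x hx => by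
  rw [Units.val_mul, Matrix.mul_apply, sum_block fun y hy => by rw [hb j y hy, mul_zero]]
  exact Finset.sum_eq_zero fun i _ => by rw [ha i x hx, zero_mul]

theorem xG_block {r : ℕ} (hr : r ∈ psiAll) (t : F) :
    Pres (X r t) ∧ res (X r t) = trM r t := by
  obtain ⟨hmem, hval⟩ := trOf_spec r hr
  have hr' : r < chevE6.nroots := hval ▸ (trOf r).1.isLt
  have key : ∀ (j : Fin 4) (x : chevE6.Idx),
      (X r t : Matrix chevE6.Idx chevE6.Idx F) x (Sum.inr (blk j)) =
        (if x = Sum.inr (blk j) then 1 else 0) +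
          if j = (trOf r).2.2 ∧ x = Sum.inr (blk (trOf r).2.1) then t else 0 := by
    intro j x
    rw [coe_xG, ChevalleyDatum.x, dif_pos hr', ChevalleyDatum.xMat, Matrix.of_apply]
    have hoff := trans_off _ hmem j
    rw [hval, Bool.or_eq_false_iff, beq_eq_false_iff_ne, beq_eq_false_iff_ne] at hoff
    have h1 : blk j ≠ (⟨r, hr'⟩ : Fin chevE6.nroots) := fun e => hoff.1 (congrArg Fin.val e).symm
    have h2 : (blk j : ℕ) ≠ chevE6.negIdx.getD r 0 := fun e => hoff.2 e.symm
    simp only [h1, h2, if_false]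
    rcases x with i | u
    · simp
    · have hc := chain_spec _ hmem j u
      simp only [chainOK, hval] at hc
      show (if u = blk j then (1 : F) else 0) + _ = _
      have hb : ((blk j : Fin chevE6.nroots) : ℕ) = block.getD j 0 := rfl
      rw [hb]
      by_cases hu : chainExpected (trOf r) j u = true
      · rw [if_pos hu] at hc
        simp only [chainExpected, Bool.and_eq_true, decide_eq_true_eq] at hu
        have hu' : u = blk (trOf r).2.1 := Fin.ext hu.2
        rw [if_pos (c := _ ∧ _) ⟨hu.1, by rw [hu']⟩]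
        simp only [Sum.inr.injEq]
        congr 1
        rcases Bool.or_eq_true_iff.1 hc with e | e <;> rw [beq_iff_eq] at e <;> rw [e] <;>
          simp [CharTwo.neg_eq]
      · rw [if_neg hu] at hc
        rw [beq_iff_eq.1 hc]
        simp only [chainExpected, Bool.and_eq_true, decide_eq_true_eq] at hu
        rw [if_neg (c := _ ∧ _) fun e => hu ⟨e.1, congrArg Fin.val (Sum.inr_injective e.2)⟩]
        simp
  refine ⟨fun j x hx => ?_, ?_⟩
  · rw [key, if_neg (hx j), if_neg fun e => hx _ e.2, add_zero]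
  · ext i j
    rw [res, Matrix.of_apply, key, trM, Matrix.transvection, Matrix.add_apply, Matrix.one_apply,
      Matrix.single_apply]
    simp only [Sum.inr.injEq, blk_injective.eq_iff]
    congr 1
    by_cases hij : (trOf r).2.1 = i ∧ (trOf r).2.2 = j
    · rw [if_pos hij, if_pos ⟨hij.2.symm, hij.1.symm⟩]
    · rw [if_neg hij, if_neg fun e => hij ⟨e.2.symm, e.1.symm⟩]

theorem prodU_block (t : ℕ → F) : ∀ L : List ℕ, (∀ r ∈ L, r ∈ psiAll) →
    Pres (prodU cert_E6 L t) ∧ res (prodU cert_E6 L t) = (L.map fun r => trM r (t r)).prod := by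
  intro L
  induction L with
  | nil => exact fun _ => ⟨pres_one, res_one⟩
  | cons r L ih =>
    intro h
    obtain ⟨h1, h2⟩ := ih fun s hs => h s (by simp [hs])
    obtain ⟨h3, h4⟩ := xG_block (h r (by simp)) (t r)
    rw [prodU_cons]
    exact ⟨pres_mul h3 h1, by rw [res_mul h1, h2, h4, List.map_cons, List.prod_cons]⟩

theorem prodU_psiPos (t : ℕ → F) :
    Pres (prodU cert_E6 psiPos t) ∧ res (prodU cert_E6 psiPos t) = PU fun i : Fin 6 => t (psiPos.getD (i : ℕ) 0) := by
  obtain ⟨h1, h2⟩ := prodU_block t psiPos fun r hr => (psiPos_sub r hr).1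
  refine ⟨h1, h2.trans ?_⟩
  conv_lhs => rw [psiPos_eq, List.map_map]
  rfl

theorem nW_block (k : Fin 24) :
    Pres (nW cert_E6 F (stab.getD (k : ℕ) [])) ∧ res (nW cert_E6 F (stab.getD (k : ℕ) [])) = PP F k := by
  set l := stab.getD (k : ℕ) [] with hl
  obtain ⟨η, hA⟩ := acts_nW (F := F) h6 l
  obtain ⟨η₀, hA₀⟩ := acts_nW (F := ZMod 2) h6 l
  have h1 : ∀ s, η s = 1 := fun s =>
    scalars_one hA₀ (by rw [CfsgLib.ReflectionsSpinor.ChevField.push_nW]; exact hA) s
  have hp : ∀ j : Fin 4, wPerm cert_E6 l (blk j) = blk ((stabBlock.getD (k : ℕ) []).getD (j : ℕ) 0) := fun j =>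
    Fin.ext ((wPerm_val l (blk j)).trans ((stab_spec.2.2 k).2 j))
  have hcol : ∀ (x : chevE6.Idx) (j : Fin 4),
      (nW cert_E6 F l : Matrix chevE6.Idx chevE6.Idx F) x (Sum.inr (blk j)) =
        if x = Sum.inr (blk ((stabBlock.getD (k : ℕ) []).getD (j : ℕ) 0)) then 1 else 0 := fun x j => by
    rw [hA.col, h1, hp]
  refine ⟨fun j x hx => by rw [hcol, if_neg (hx _)], ?_⟩
  ext i j
  simp only [res, Matrix.of_apply, hcol, PP, Sum.inr.injEq, blk_injective.eq_iff]

theorem torus_block {c : Fin chevE6.rank → Fˣ} {lam : Fˣ} (h : ∀ j, chi chevE6 (blk j) c = lam) :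
    Pres (T c) ∧ res (T c) = (lam : F) • (1 : M4 F) := by
  refine ⟨fun j x hx => ?_, ?_⟩
  · rw [coe_torusHom, Matrix.diagonal_apply_ne _ (hx j)]
  · ext i j
    rw [res, Matrix.of_apply, coe_torusHom, Matrix.diagonal_apply, Matrix.smul_apply, Matrix.one_apply]
    simp only [Sum.inr.injEq, blk_injective.eq_iff]
    split_ifs <;> simp [h]

/-- Every invertible matrix over the field with two elements is a product of transvections. -/
theorem gl_induction {P : M4 (ZMod 2) → Prop} (h1 : P 1) (hmul : ∀ A B, P A → P B → P (A * B))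
    (htr : ∀ r ∈ psiAll, P (trM r 1)) (A : GL (Fin 4) (ZMod 2)) : P (A : M4 (ZMod 2)) := by
  obtain ⟨L, L', d, e⟩ :=
    Matrix.Pivot.exists_list_transvec_mul_diagonal_mul_list_transvec (A : M4 (ZMod 2))
  have hd : d = 1 := by
    have hdet : (A : M4 (ZMod 2)).det ≠ 0 := ((Matrix.isUnit_iff_isUnit_det _).1 A.isUnit).ne_zero
    rw [e] at hdet
    simp only [Matrix.det_mul, Matrix.TransvectionStruct.det_toMatrix_prod, one_mul, mul_one,
      Matrix.det_diagonal] at hdet
    funext i
    have hi := Finset.prod_ne_zero_iff.1 hdet i (Finset.mem_univ i)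
    show d i = 1
    revert hi
    generalize d i = z
    revert z
    decide
  have hL : ∀ L : List (Matrix.TransvectionStruct (Fin 4) (ZMod 2)),
      P (L.map Matrix.TransvectionStruct.toMatrix).prod := by
    intro L
    induction L with
    | nil => exact h1
    | cons t L ih =>
      rw [List.map_cons, List.prod_cons]
      refine hmul _ _ ?_ ih
      obtain ⟨i, j, hij, c⟩ := t
      show P (Matrix.transvection i j c)
      have hc : c = 0 ∨ c = 1 := by revert c; decide
      rcases hc with rfl | rfl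
      · rw [Matrix.transvection_zero]; exact h1
      · obtain ⟨t, ht, e1, e2⟩ := trans_all i j hij
        have hr := (trans_ne t ht).2
        have htu : ∀ t ∈ trPos, trOf (t.1 : ℕ) = t := by decide +kernel
        have := htr _ hr
        rwa [trM, htu t ht, e1, e2] at this
  rw [e, hd, show Matrix.diagonal (1 : Fin 4 → ZMod 2) = 1 from Matrix.diagonal_one, mul_one]
  exact hmul _ _ (hL L) (hL L')

end CfsgLib.TwistedE6Five
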