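import Cfsg.Agent.Lib.TwistedE6Five.Data

/-! The Weyl elements fixing the values of the torus element of order five are the twenty four listed ones. -/

set_option autoImplicit false
set_option maxRecDepth 100000

open Cfsg.Lie CfsgLib.Chevalley

namespace CfsgLib.TwistedE6Five

theorem key_crd (s : Fin chevE6.nroots) :
    keyT.getD (s : ℕ) 0 = ∑ j : Fin chevE6.rank, crd auxE6 (j : ℕ) (s : ℕ) * 100 ^ (j : ℕ) :=
  key_spec.2.2 s

theorem key_injective {s u : Fin chevE6.nroots} (h : keyT.getD (s : ℕ) 0 = keyT.getD (u : ℕ) 0) : s = u := by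
  have hs : (s : ℕ) < keyT.length := by rw [key_spec.1]; exact s.isLt
  have hu : (u : ℕ) < keyT.length := by rw [key_spec.1]; exact u.isLt
  rw [List.getD_eq_getElem _ _ hs, List.getD_eq_getElem _ _ hu] at h
  exact Fin.ext ((List.Nodup.getElem_inj_iff key_spec.2.1).1 h)

theorem key_lin {K : Type*} [Field K] {g : GL chevE6.Idx K} {σ : Equiv.Perm (Fin chevE6.nroots)}
    {η : Fin chevE6.nroots → K} (hA : Acts cert_E6 g σ η) (s : Fin chevE6.nroots) :
    keyT.getD (σ s : ℕ) 0 =
      ∑ j : Fin chevE6.rank, crd auxE6 (j : ℕ) (s : ℕ) * keyT.getD (σ (smp cert_E6 j) : ℕ) 0 := by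
  simp only [key_crd, Finset.mul_sum]
  rw [Finset.sum_comm]
  refine Finset.sum_congr rfl fun i _ => ?_
  rw [hA.lin i i.isLt s, Finset.sum_mul]
  exact Finset.sum_congr rfl fun j _ => by ring

/-- A combination supported by placed roots. -/
theorem dotKey_eq (f : Fin chevE6.rank → ℤ) : ∀ (as : List ℤ) (ls : List (Fin chevE6.rank)),
    dotKey as (ls.map f) =
      ∑ j : Fin chevE6.rank, ((List.zip as ls).map fun p => if p.2 = j then p.1 else 0).sum * f j
  | [], ls => by cases ls <;> simp [dotKey]
  | a :: as, [] => by simp [dotKey]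
  | a :: as, i :: ls => by
    simp only [List.map_cons, dotKey, dotKey_eq f as ls, List.zip_cons_cons, List.sum_cons, add_mul,
      Finset.sum_add_distrib, ite_mul, zero_mul, Finset.sum_ite_eq, Finset.mem_univ, if_true]

theorem getElem?_map_take {α β : Type*} (f : α → β) (l : List α) (k : ℕ) (d : α) (hk : k < l.length) :
    (l.map f).take k ++ [f (l.getD k d)] = (l.map f).take (k + 1) := by
  rw [List.take_add_one, List.getElem?_eq_getElem (by simpa using hk), List.getElem_map,
    List.getD_eq_getElem _ _ hk]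
  rfl

/-- The Weyl group fixes the radical of the Cartan matrix modulo three. -/
theorem rad_invariant (l : List (Fin chevE6.rank)) : ∀ j : Fin chevE6.rank,
    (3 : ℤ) ∣ (∑ i : Fin chevE6.rank, (zThree.getD i 0 : ℤ) * crd auxE6 j (wPerm cert_E6 l (smp cert_E6 i))) -
      (zThree.getD j 0 : ℤ) := by
  induction l with
  | nil =>
    intro j
    refine ⟨0, ?_⟩
    simp only [wPerm_nil, Equiv.Perm.one_apply]
    rw [mul_zero, sub_eq_zero, Finset.sum_eq_single j]
    · rw [show ((smp cert_E6 j : Fin chevE6.nroots) : ℕ) = chevE6.simple j from rfl,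
        crd_simple cert_E6 j.isLt j.isLt, if_pos rfl, mul_one]
    · intro i _ hij
      rw [show ((smp cert_E6 i : Fin chevE6.nroots) : ℕ) = chevE6.simple i from rfl,
        crd_simple cert_E6 j.isLt i.isLt, if_neg (fun e => hij (Fin.ext e.symm)), mul_zero]
    · simp
  | cons a l ih =>
    intro j
    have e : ∀ i, crd auxE6 j (wPerm cert_E6 (a :: l) (smp cert_E6 i)) = crd auxE6 j (wPerm cert_E6 l (smp cert_E6 i)) -
        chevE6.cartan a (wPerm cert_E6 l (smp cert_E6 i)) * (if (a : ℕ) = j then 1 else 0) := fun i => by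
      rw [wPerm_cons, Equiv.Perm.mul_apply, rfPerm_apply]
      exact ((refl_spec cert_E6 a.isLt (Fin.isLt _)).2.2.2.2.2.2.2 j j.isLt).2.1
    have hz : (3 : ℤ) ∣ ∑ i : Fin chevE6.rank, (zThree.getD i 0 : ℤ) * chevE6.cartan a (wPerm cert_E6 l (smp cert_E6 i)) := by
      simp only [fun s => cartan_eq_sum CfsgLib.Twisted.fullE6 a s, Finset.mul_sum]
      rw [Finset.sum_comm]
      have e' : (∑ m : Fin chevE6.rank, ∑ i : Fin chevE6.rank, (zThree.getD i 0 : ℤ) *
          (crd auxE6 m (wPerm cert_E6 l (smp cert_E6 i)) * chevE6.cartan a (chevE6.simple m))) =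
          (∑ m : Fin chevE6.rank, ((∑ i : Fin chevE6.rank, (zThree.getD i 0 : ℤ) *
            crd auxE6 m (wPerm cert_E6 l (smp cert_E6 i))) - (zThree.getD m 0 : ℤ)) * chevE6.cartan a (chevE6.simple m)) +
          ∑ m : Fin chevE6.rank, (zThree.getD m 0 : ℤ) * chevE6.cartan a (chevE6.simple m) := by
        rw [← Finset.sum_add_distrib]
        refine Finset.sum_congr rfl fun m _ => ?_
        rw [← add_mul, sub_add_cancel, Finset.sum_mul]
        exact Finset.sum_congr rfl fun i _ => by ring
      rw [e']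
      exact dvd_add (Finset.dvd_sum fun m _ => (ih m).mul_right _) (Int.dvd_of_emod_eq_zero (zThree_spec a))
    have e2 : (∑ i : Fin chevE6.rank, (zThree.getD i 0 : ℤ) * crd auxE6 j (wPerm cert_E6 (a :: l) (smp cert_E6 i))) -
        (zThree.getD j 0 : ℤ) =
        ((∑ i : Fin chevE6.rank, (zThree.getD i 0 : ℤ) * crd auxE6 j (wPerm cert_E6 l (smp cert_E6 i))) -
          (zThree.getD j 0 : ℤ)) - (∑ i : Fin chevE6.rank, (zThree.getD i 0 : ℤ) *
            chevE6.cartan a (wPerm cert_E6 l (smp cert_E6 i))) * (if (a : ℕ) = j then 1 else 0) := by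
      simp only [e, mul_sub, Finset.sum_sub_distrib, Finset.sum_mul, mul_assoc]
      ring
    rw [e2]
    exact dvd_sub (ih j) (hz.mul_right _)

variable {K : Type*} [Field K] {g : GL chevE6.Idx K} {σ : Equiv.Perm (Fin chevE6.nroots)}
  {η : Fin chevE6.nroots → K}

theorem search_step (hA : Acts cert_E6 g σ η)
    (hv : ∀ s : Fin chevE6.nroots, valA.getD (σ s : ℕ) 0 = valA.getD (s : ℕ) 0) :
    ∀ (n k : ℕ), k + n = 6 →
      searchB (levels.drop k) ((nodeOrder.map fun i => keyT.getD (σ (smp cert_E6 i) : ℕ) 0).take k) = true →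
      (nodeOrder.map fun i => keyT.getD (σ (smp cert_E6 i) : ℕ) 0) ∈ finals ∨
        radB (nodeOrder.map fun i => keyT.getD (σ (smp cert_E6 i) : ℕ) 0) = false := by
  have hlen : nodeOrder.length = 6 := rfl
  intro n
  induction n with
  | zero =>
    intro k hk h
    have hk6 : k = 6 := by omega
    subst hk6
    rw [List.drop_of_length_le levels_spec.1.le, List.take_of_length_le (by rw [List.length_map, hlen]), searchB] at h
    rcases Bool.or_eq_true_iff.1 h with h | h
    · exact Or.inl (List.contains_iff_mem.1 h)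
    · exact Or.inr (by simpa using h)
  | succ n ih =>
    intro k hk h
    have hk6 : k < 6 := by omega
    refine ih (k + 1) (by omega) ?_
    set d : Fin chevE6.rank := (⟨0, by decide⟩ : Fin chevE6.rank)
    set i₀ := nodeOrder.getD k d with hi₀
    set r := σ (smp cert_E6 i₀) with hr
    rw [List.drop_eq_getElem_cons (by rw [levels_spec.1]; omega), searchB, List.all_eq_true] at h
    have h1 := h (keyT.getD (r : ℕ) 0)
    obtain ⟨hval, htests⟩ := levels_spec.2 ⟨k, hk6⟩
    have hget : levels.getD k (0, []) = levels[k]'(by rw [levels_spec.1]; omega) :=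
      List.getD_eq_getElem _ _ _
    simp only [hget] at hval htests
    have hseq := getElem?_map_take (fun i => keyT.getD (σ (smp cert_E6 i) : ℕ) 0) nodeOrder k d (by omega)
    rw [← hi₀, ← hr] at hseq
    rw [hseq] at h1
    have e1 : valA.getD (r : ℕ) 0 = (levels[k]'(by rw [levels_spec.1]; omega)).1 := by
      rw [hval, hr, hv]; rfl
    have e2 : (levels[k]'(by rw [levels_spec.1]; omega)).2.all
        (testB ((nodeOrder.map fun i => keyT.getD (σ (smp cert_E6 i) : ℕ) 0).take (k + 1))) = true := by
      rw [List.all_eq_true]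
      intro t ht
      obtain ⟨ht1, -, htc⟩ := htests t ht
      let st : Fin chevE6.nroots := ⟨t.1, ht1⟩
      have hdot : dotKey t.2 ((nodeOrder.map fun i => keyT.getD (σ (smp cert_E6 i) : ℕ) 0).take (k + 1)) =
          keyT.getD (σ st : ℕ) 0 := by
        rw [← List.map_take, dotKey_eq, key_lin hA st]
        exact Finset.sum_congr rfl fun j _ => by rw [htc j]
      simp only [testB, hdot, List.contains_iff_mem]
      show _ ∈ keysV.getD (valA.getD (st : ℕ) 0) []
      rw [← hv st]
      exact keysV_spec (σ st)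
    have h1' := h1 (by rw [← e1]; exact keysV_spec r)
    rw [e2] at h1'
    simpa using h1' 

/-- A Weyl permutation fixing the values is one of the twenty four. -/
theorem exists_stab (l : List (Fin chevE6.rank))
    (hv : ∀ s : Fin chevE6.nroots, valA.getD (wPerm cert_E6 l s : ℕ) 0 = valA.getD (s : ℕ) 0) :
    ∃ k : Fin 24, wPerm cert_E6 l = wPerm cert_E6 (stab.getD (k : ℕ) []) := by
  obtain ⟨η, hA⟩ := acts_nW (F := ℚ) CfsgLib.Twisted.fullE6 l
  have hrad : radB (nodeOrder.map fun i => keyT.getD (wPerm cert_E6 l (smp cert_E6 i) : ℕ) 0) = true := by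
    simp only [radB, List.all_eq_true, List.mem_range, beq_iff_eq]
    intro j hj
    have hidx : ∀ s : Fin chevE6.nroots, keyT.idxOf (keyT.getD (s : ℕ) 0) = (s : ℕ) := fun s => by
      have hlt : (s : ℕ) < keyT.length := by rw [key_spec.1]; exact s.isLt
      rw [List.getD_eq_getElem _ _ hlt, key_spec.2.1.idxOf_getElem]
    have hzip : ∀ (L : List (Fin chevE6.rank)) (f : Fin chevE6.rank → ℤ),
        List.zip L (L.map f) = L.map fun i => (i, f i) := fun L f => by
      induction L with
      | nil => rfl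
      | cons a L ih => simp [ih]
    rw [hzip nodeOrder, List.map_map]
    refine Int.emod_eq_zero_of_dvd ?_
    have hperm : nodeOrder.Perm (List.finRange chevE6.rank) := by decide +kernel
    rw [(hperm.map _).sum_eq]
    have h := rad_invariant l ⟨j, hj⟩
    rw [← Fin.sum_univ_def]
    simpa only [Function.comp_def, hidx] using h
  rcases search_step hA hv 6 0 rfl search_ok with h | h
  · rw [finals_spec, List.mem_map] at h
    obtain ⟨x, hx, he⟩ := h
    obtain ⟨k, hk, rfl⟩ := List.getElem_of_mem hx
    refine ⟨⟨k, stab_spec.1 ▸ hk⟩, Equiv.ext fun s => key_injective ?_⟩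
    rw [List.getD_eq_getElem _ _ hk]
    obtain ⟨η', hA'⟩ := acts_nW (F := ℚ) CfsgLib.Twisted.fullE6 stab[k]
    rw [key_lin hA s, key_lin hA' s]
    refine Finset.sum_congr rfl fun j _ => ?_
    have hj : j ∈ nodeOrder := by revert j; decide +kernel
    have e := List.map_inj_left.1 he j hj
    rw [wPerm_val stab[k] (smp cert_E6 j)]
    rw [← e]
    rfl
  · rw [hrad] at h
    exact absurd h (by simp)

end CfsgLib.TwistedE6Five
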