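import Cfsg.Agent.Lib.TwistedE6Five.Block
import Cfsg.Agent.Lib.TwistedE6Five.Stab
import Cfsg.Agent.Lib.Chevalley.TorusCentralizer
import Cfsg.Agent.Lib.E7Two.Count

/-! The centraliser of the element of order five in the first frame is `5 × GL(4, 2)`. -/

set_option autoImplicit false
set_option maxRecDepth 100000
set_option linter.unusedSectionVars false

open Cfsg.Lie CfsgLib.Chevalley CfsgLib.Chevalley.Twist

namespace CfsgLib.TwistedE6Five

variable {F : Type*} [Field F] [CharP F 2]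

/-- The torus element of order five. -/
noncomputable abbrev cA (ζ : Fˣ) : Fin chevE6.rank → Fˣ := hT expA ζ

theorem chi_cA {ζ : Fˣ} (hζ : orderOf ζ = 5) (s : Fin chevE6.nroots) :
    chi chevE6 s (cA ζ) = ζ ^ valA.getD s 0 :=
  chi_hT (valA_spec.1 s).2.1 hζ

theorem chi_cA_one_iff {ζ : Fˣ} (hζ : orderOf ζ = 5) (s : Fin chevE6.nroots) :
    chi chevE6 s (cA ζ) = 1 ↔ (s : ℕ) ∈ psiAll := by
  rw [chi_cA hζ, ← valA_spec.2 s]
  refine ⟨fun h => ?_, fun h => by rw [h, pow_zero]⟩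
  rw [← orderOf_dvd_iff_pow_eq_one, hζ] at h
  have := (valA_spec.1 s).1
  omega

theorem chi_cA_twist {ζ : Fˣ} (hζ : orderOf ζ = 5) (s : Fin chevE6.nroots) :
    chi chevE6 (tA s : Fin chevE6.nroots) (cA ζ) = chi chevE6 s (cA ζ) ^ 2 := by
  rw [chi_cA hζ, chi_cA hζ, tA_eq, (valA_spec.1 s).2.2, ← hζ, pow_mod_orderOf, mul_comm, pow_mul]

theorem tA_fix {r : Fin chevE6.nroots} (hr : (r : ℕ) ∈ psiAll) : tA r = r :=
  Fin.ext (by rw [tA_eq]; exact psi_spec.2.2.2 r hr)

theorem stab_comm (k : Fin 24) (s : Fin chevE6.nroots) :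
    wPerm cert_E6 (stab.getD (k : ℕ) []) (tA s) = tA (wPerm cert_E6 (stab.getD (k : ℕ) []) s) :=
  Fin.ext (by rw [wPerm_val, tA_eq, tA_eq, wPerm_val]; exact (((stab_spec.2.2 k).1 s).2).symm)

theorem psiPos_closed : IsClosedRoots chevE6 {r | r ∈ psiPos} := by
  have h : (∀ r ∈ psiPos, chevE6.IsPosRoot r) ∧
      ∀ r ∈ psiPos, ∀ s ∈ psiPos, ∀ c ∈ chevE6.commTerms r s, c.1 ∈ psiPos := by decide +kernel
  exact ⟨h.1, fun r hr s hs _ c hc => h.2 r hr s hs c hc⟩

theorem pos_chi_sub {ζ : Fˣ} (hζ : orderOf ζ = 5) {r : ℕ} (hr : chevE6.IsPosRoot r)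
    (h1 : chi chevE6 r (cA ζ) = 1) : r ∈ psiPos := by
  have h2 := (chi_cA_one_iff hζ ⟨r, hr.1⟩).1 h1
  exact (psi_spec.2.2.1 ⟨r, hr.1⟩).2 ⟨(psi_spec.1 ⟨r, hr.1⟩).1 hr, h2⟩

theorem zero_or_one {x : F} (h : x ^ 2 = x) : x = 0 ∨ x = 1 := by
  have : x * x = x * 1 := by rw [mul_one, ← sq, h]
  exact (mul_eq_mul_left_iff.1 this).symm

variable {φ : M F → M F} {g n : M F}

/-- The centraliser of the torus element among the fixed elements of the twist. -/
def cent (hφ : Endo φ) (n : M F) (c : Fin chevE6.rank → Fˣ) : Subgroup (M F) where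
  carrier := {a | a ∈ chevE6.group F ∧ tw φ n a = a ∧ Commute (T c) a}
  one_mem' := ⟨one_mem _, tw_one hφ n, Commute.one_right _⟩
  mul_mem' := fun {a b} ha hb =>
    ⟨mul_mem ha.1 hb.1, by rw [tw_mul hφ ha.1 hb.1, ha.2.1, hb.2.1], ha.2.2.mul_right hb.2.2⟩
  inv_mem' := fun {a} ha => ⟨inv_mem ha.1, by rw [tw_inv hφ ha.1, ha.2.1], ha.2.2.inv_right⟩

theorem zpow_cert [Fintype F] (hF : Fintype.card F = 16) {c : Fin chevE6.rank → Fˣ}
    (hc : ∀ s, chi chevE6 (tA s : Fin chevE6.nroots) c = chi chevE6 s c ^ 2) :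
    chi chevE6 (blk 0) c ^ 5 = 1 ∧ ∀ s : Fin chevE6.nroots, chi chevE6 s c = chi chevE6 (blk 0) c ^ expS.getD s 0 := by
  classical
  obtain ⟨γ, hγ⟩ := IsCyclic.exists_generator (α := Fˣ)
  have hord : (orderOf γ : ℤ) = 15 := by
    rw [orderOf_eq_card_of_forall_mem_zpowers hγ, Nat.card_eq_fintype_card, Fintype.card_units, hF]
    rfl
  choose x hx using fun k => Subgroup.mem_zpowers_iff.1 (hγ (c k))
  let L : ℕ → ℤ := fun s => ∑ k : Fin chevE6.rank, x k * chevE6.cartan k s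
  have hchi : ∀ s : ℕ, chi chevE6 s c = γ ^ L s := fun s => by
    show ∏ k : Fin chevE6.rank, c k ^ chevE6.cartan k s = γ ^ ∑ k : Fin chevE6.rank, x k * chevE6.cartan k s
    generalize (Finset.univ : Finset (Fin chevE6.rank)) = U
    induction U using Finset.induction with
    | empty => simp
    | insert i S hi ih =>
      rw [Finset.sum_insert hi, Finset.prod_insert hi, _root_.zpow_add, _root_.zpow_mul, hx, ih]
  have hrel : ∀ i : Fin chevE6.rank,
      (15 : ℤ) ∣ L (tauA.getD (chevE6.simple i) 0) - 2 * L (chevE6.simple i) := by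
    intro i
    have e2 : γ ^ (2 * L (chevE6.simple i)) = chi chevE6 (chevE6.simple i) c ^ 2 := by
      rw [two_mul, _root_.zpow_add, sq, hchi]
    rw [← hord, orderOf_dvd_iff_zpow_eq_one, _root_.zpow_sub, e2, ← hchi,
      show (tauA.getD (chevE6.simple i) 0) = ((tA (smp cert_E6 i) : Fin chevE6.nroots) : ℕ) from (tA_eq (smp cert_E6 i)).symm,
      hc]
    exact mul_inv_cancel _
  have hcomb : ∀ (a : Fin chevE6.rank → ℤ) (w : Fin chevE6.rank → ℤ),
      (∀ k, (w k - ∑ i : Fin chevE6.rank, a i *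
        (chevE6.cartan k (tauA.getD (chevE6.simple i) 0) - 2 * chevE6.cartan k (chevE6.simple i))) % 15 = 0) →
      (15 : ℤ) ∣ ∑ k, x k * w k := by
    intro a w hw
    have h2 : ∑ i : Fin chevE6.rank, a i * (L (tauA.getD (chevE6.simple i) 0) - 2 * L (chevE6.simple i)) =
        ∑ k, x k * ∑ i : Fin chevE6.rank, a i *
          (chevE6.cartan k (tauA.getD (chevE6.simple i) 0) - 2 * chevE6.cartan k (chevE6.simple i)) := by
      simp only [L, Finset.mul_sum, ← Finset.sum_sub_distrib]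
      rw [Finset.sum_comm]
      exact Finset.sum_congr rfl fun k _ => Finset.sum_congr rfl fun i _ => by ring
    have e : ∑ k, x k * w k = ∑ k, x k * (w k - ∑ i : Fin chevE6.rank, a i *
        (chevE6.cartan k (tauA.getD (chevE6.simple i) 0) - 2 * chevE6.cartan k (chevE6.simple i))) +
        ∑ i : Fin chevE6.rank, a i * (L (tauA.getD (chevE6.simple i) 0) - 2 * L (chevE6.simple i)) := by
      rw [h2, ← Finset.sum_add_distrib]
      exact Finset.sum_congr rfl fun k _ => by ring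
    rw [e]
    exact dvd_add (Finset.dvd_sum fun k _ => (Int.dvd_of_emod_eq_zero (hw k)).mul_left _)
      (Finset.dvd_sum fun i _ => (hrel i).mul_left _)
  refine ⟨?_, fun s => ?_⟩
  · rw [← zpow_natCast, hchi, ← _root_.zpow_mul, ← orderOf_dvd_iff_zpow_eq_one, hord]
    have h := hcomb (fun i => certFive.getD i 0) (fun k => 5 * chevE6.cartan k (block.getD 0 0)) certFive_spec
    have e : L (blk 0 : Fin chevE6.nroots) * ((5 : ℕ) : ℤ) = ∑ k, x k * (5 * chevE6.cartan k (block.getD 0 0)) := by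
      simp only [L, Finset.sum_mul]
      exact Finset.sum_congr rfl fun k _ => by
        show x k * chevE6.cartan k (block.getD 0 0) * ((5 : ℕ) : ℤ) = _
        push_cast; ring
    rw [e]
    exact h
  · rw [← mul_inv_eq_one, hchi, hchi, ← zpow_natCast, ← _root_.zpow_mul, ← _root_.zpow_sub,
      ← orderOf_dvd_iff_zpow_eq_one, hord]
    have h := hcomb (fun i => (certA.getD (s : ℕ) []).getD i 0)
      (fun k => chevE6.cartan k s - (expS.getD s 0 : ℕ) * chevE6.cartan k (block.getD 0 0)) (certA_spec s)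
    have e : L s - L (blk 0 : Fin chevE6.nroots) * (expS.getD s 0 : ℕ) = ∑ k, x k *
        (chevE6.cartan k s - (expS.getD s 0 : ℕ) * chevE6.cartan k (block.getD 0 0)) := by
      simp only [L, Finset.sum_mul, ← Finset.sum_sub_distrib]
      exact Finset.sum_congr rfl fun k _ => by
        show x k * chevE6.cartan k s - x k * chevE6.cartan k (block.getD 0 0) * _ = _
        ring
    rw [e]
    exact h

/-- The shape of an element of the centraliser. -/
theorem decomp [Fintype F] (hF : Fintype.card F = 16) (hφ : Endo φ) (hf : Frame φ g n tA) {ζ : Fˣ}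
    (hζ : orderOf ζ = 5) {a : M F} (ha : a ∈ cent hφ n (cA ζ)) :
    ∃ (k : Fin 24) (tu tv : ℕ → ZMod 2) (c : Fin chevE6.rank → Fˣ),
      a = prodU cert_E6 psiPos (fun r => ι (tu r)) * (nW cert_E6 F (stab.getD (k : ℕ) []) * T c) *
        prodU cert_E6 psiPos (fun r => ι (tv r)) ∧
      chi chevE6 (blk 0) c ^ 5 = 1 ∧
      (∀ s : Fin chevE6.nroots, chi chevE6 s c = chi chevE6 (blk 0) c ^ expS.getD s 0) ∧
      (k = 0 → prodU cert_E6 psiPos (fun r => (ι (tv r) : F)) = 1) := by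
  classical
  obtain ⟨haG, hafix, hac⟩ := ha
  obtain ⟨u, hu, m, hm, π, η, hA, v, hv, rfl⟩ := exists_canonical h6 haG
  set d := T (cA ζ) with hd
  have hdH : d ∈ chevE6.diagonalSubgroup F := torus_mem_diagonal h6 (cA ζ)
  obtain ⟨η', hA'⟩ : ∃ η', Acts h6.cert (d * m * d⁻¹) π η' := by
    have := ((acts_torus h6.cert (cA ζ)).mul hA).mul (acts_torus h6.cert (cA ζ)⁻¹)
    rw [map_inv, mul_one, one_mul] at this
    exact ⟨_, this⟩
  have hn' : d * m * d⁻¹ ∈ chevE6.monomialSubgroup F :=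
    mul_mem (mul_mem (diagonal_le_monomial hdH) hm) (inv_mem (diagonal_le_monomial hdH))
  obtain ⟨eu, em, ev⟩ := canonical_unique h6 (diagonal_conj_rootsU h6 _ d hdH u hu) hu hn' hm hA' hA
    (diagonal_conj_rootsU h6 _ d hdH v hv) hv
    (by rw [show d * u * d⁻¹ * (d * m * d⁻¹) * (d * v * d⁻¹) = d * (u * m * v) * d⁻¹ by group,
      hac.eq, mul_inv_cancel_right])
  have hπval : ∀ s : Fin chevE6.nroots, chi chevE6 (π s : Fin chevE6.nroots) (cA ζ) = chi chevE6 s (cA ζ) := fun s => by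
    have he := congrArg
      (fun g : M F => (g : Matrix chevE6.Idx chevE6.Idx F) (Sum.inr (π s)) (Sum.inr s))
      (mul_inv_eq_iff_eq_mul.1 em)
    simp only [hd, Units.val_mul, coe_torusHom, Matrix.diagonal_mul, Matrix.mul_diagonal, hA.col,
      if_true, Sum.elim_inr] at he
    rw [mul_comm] at he
    exact Units.ext (mul_left_cancel₀ (hA.ne_zero s) he)
  -- the Weyl element is one of the twenty four
  obtain ⟨l, t, ht, hmt⟩ := (mem_monomial_iff h6).1 hm
  obtain ⟨c₁, rfl⟩ : ∃ c₁, T c₁ = t := by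
    rw [diagonalSubgroup_eq_range h6] at ht
    exact ht
  obtain ⟨η₀, hη₀⟩ := acts_nW (F := F) h6 l
  have hperm : π = wPerm cert_E6 l := by
    rw [hmt] at hA
    exact (hA.perm_eq (hη₀.mul (acts_torus h6.cert c₁))).trans (mul_one _)
  obtain ⟨k, hk⟩ := exists_stab l fun s => by
    have e := hπval s
    rw [hperm, chi_cA hζ, chi_cA hζ] at e
    exact pow_injOn_Iio_orderOf (by rw [Set.mem_Iio, hζ]; exact (valA_spec.1 _).1)
      (by rw [Set.mem_Iio, hζ]; exact (valA_spec.1 _).1) e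
  rw [hk] at hperm
  set l₀ := stab.getD (k : ℕ) [] with hl₀
  -- the unipotent parts live on the roots of value zero
  have hu' : u ∈ rootsU chevE6 F {r | r ∈ psiPos} :=
    rootsU_mono (fun r hr => pos_chi_sub hζ hr.1 hr.2) (mem_rootsU_of_commute h6 hu (mul_inv_eq_iff_eq_mul.1 eu))
  let L₀ : List ℕ := (List.range chevE6.nroots).filter fun r => decide (r ∈ invSet chevE6 π)
  have hL₀ : ∀ r, r ∈ L₀ ↔ r ∈ invSet chevE6 π := fun r => by
    simp only [L₀, List.mem_filter, List.mem_range, decide_eq_true_eq]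
    exact ⟨fun h => h.2, fun h => ⟨h.1.1, h⟩⟩
  have hLset : {r | r ∈ L₀} = invSet chevE6 π := Set.ext hL₀
  have hv' : v ∈ rootsU chevE6 F {r | r ∈ L₀ ∧ chi chevE6 r (cA ζ) = 1} :=
    CfsgLib.E7Two.mem_rootsU_of_commute_closed h6 (List.pairwise_lt_range.filter _)
      (by rw [hLset]; exact isClosed_invSet h6 hA) (by rw [hLset]; exact hv) (mul_inv_eq_iff_eq_mul.1 ev)
  set S := {r | r ∈ L₀ ∧ chi chevE6 r (cA ζ) = 1} with hS
  have hSpsi : ∀ r ∈ S, r ∈ psiPos := fun r hr => pos_chi_sub hζ ((hL₀ r).1 hr.1).1 hr.2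
  have hSlt : ∀ r ∈ S, r < chevE6.nroots := fun r hr => (psiPos_sub r (hSpsi r hr)).2
  -- all three are fixed
  have huG := rootsU_le_group cert_E6 _ hu'
  have hvG := rootsU_le_group cert_E6 _ hv'
  have hmG := monomial_le_group cert_E6 hm
  rw [tw_mul hφ (mul_mem huG hmG) hvG, tw_mul hφ huG hmG] at hafix
  obtain ⟨π', η'', hA''⟩ := exists_acts h6 (tw_monomial hφ hf hm)
  have hπ' : π' = π := Equiv.ext fun r => by
    obtain ⟨s, rfl⟩ := tA.surjective r
    rw [tw_acts hφ hf hm hA hA'', hperm, stab_comm]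
  rw [hπ'] at hA''
  have hu2 : tw φ n u ∈ rootsU chevE6 F {r | r ∈ psiPos} :=
    rootsU_tw hφ hf (fun r hr => (psiPos_sub r hr).2) (fun r hr => tA_fix (psiPos_sub _ hr).1) hu'
  have hv2 : tw φ n v ∈ rootsU chevE6 F S :=
    rootsU_tw hφ hf hSlt (fun r hr => tA_fix (psiPos_sub _ (hSpsi _ hr)).1) hv'
  have hUpos : ∀ {x : M F}, x ∈ rootsU chevE6 F {r | r ∈ psiPos} → x ∈ chevE6.posUnipotent F :=
    fun hx => rootsU_mono (T := {r | chevE6.IsPosRoot r}) (fun r hr => psiPos_closed.pos r hr) hx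
  obtain ⟨fu, fm, fv⟩ := canonical_unique h6 (hUpos hu2) (hUpos hu') (tw_monomial hφ hf hm) hm hA'' hA
    (rootsU_mono (fun r hr => (hL₀ r).1 hr.1) hv2) hv hafix
  -- parameters in the field with two elements
  have par : ∀ x : M F, x ∈ rootsU chevE6 F {r | r ∈ psiPos} → tw φ n x = x →
      ∃ t : ℕ → ZMod 2, x = prodU cert_E6 psiPos fun r => ι (t r) := by
    intro x hx hfix
    obtain ⟨t, ht0, rfl⟩ := exists_prodU h6.toStd psi_spec.2.1 psiPos_closed hx
    have hfix' : tw φ n (prodU cert_E6 psiPos t) = prodU cert_E6 psiPos t := hfix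
    rw [tw_prodU hφ hf psiPos (fun r hr => (psiPos_sub r hr).2) fun r hr => tA_fix (psiPos_sub _ hr).1] at hfix'
    have h01 := prodU_injOn h6.toStd psi_spec.2.1 psiPos_closed hfix'
    refine ⟨fun r => if t r = 1 then 1 else 0, congrArg _ (funext fun r => ?_)⟩
    have hr : t r = 0 ∨ t r = 1 := by
      by_cases hr : r ∈ psiPos
      · exact zero_or_one (h01 r hr)
      · exact Or.inl (ht0 r hr)
    rcases hr with e | e <;> simp [e]
  obtain ⟨tu, htu⟩ := par u hu' fu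
  obtain ⟨tv, htv⟩ := par v (rootsU_mono hSpsi hv') fv
  -- the torus part
  have hl0m : nW cert_E6 F l₀ ∈ chevE6.monomialSubgroup F := nW_mem_monomial h6 _
  obtain ⟨c, hc⟩ : ∃ c, T c = (nW cert_E6 F l₀)⁻¹ * m := by
    obtain ⟨η₁, hη₁⟩ := acts_nW (F := F) h6 l₀
    obtain ⟨π₂, η₂, hA₂⟩ := exists_acts h6 (mul_mem (inv_mem hl0m) hm)
    have he := hη₁.mul hA₂
    rw [mul_inv_cancel_left] at he
    have hπ2 : π₂ = 1 := by
      have := (hperm.symm.trans (hA.perm_eq he))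
      exact (left_eq_mul.1 this)
    have := mem_diagonal_of_perm h6 (mul_mem (inv_mem hl0m) hm) hA₂ fun i => by
      rw [hπ2]; exact h6.simple_pos i.isLt
    rw [diagonalSubgroup_eq_range h6] at this
    exact this
  have hcfix : tw φ n (T c) = T c := by
    rw [hc, tw_mul hφ (inv_mem (monomial_le_group cert_E6 hl0m)) hmG, tw_inv hφ (monomial_le_group cert_E6 hl0m),
      tw_nW_fix hφ hf l₀ (stab_comm k), fm]
  obtain ⟨h5, hs⟩ := zpow_cert hF (chi_of_tw_torus hφ hf hcfix)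
  refine ⟨k, tu, tv, c, ?_, h5, hs, fun hk0 => ?_⟩
  · rw [← htu, ← htv, hc, mul_inv_cancel_left]
  · rw [← htv]
    have hle : rootsU chevE6 F S ≤ ⊥ := by
      rw [rootsU_le_iff cert_E6]
      intro r hr t
      obtain ⟨hpos, s, hs', hneg⟩ := (hL₀ r).1 hr.1
      have hs2 : π s = s := by
        rw [hperm, hl₀, hk0, show stab.getD ((0 : Fin 24) : ℕ) [] = [] from rfl, wPerm_nil, Equiv.Perm.one_apply]
      rw [hs2] at hneg
      exact (h6.pos_not_neg (hs' ▸ hpos) hneg).elim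
    exact Subgroup.mem_bot.1 (hle hv')

/-- The elements `λ A`. -/
noncomputable def lin (ζ : Fˣ) : ↥(Subgroup.zpowers ζ) × GL (Fin 4) (ZMod 2) →* M4 F where
  toFun p := ((p.1 : Fˣ) : F) • mapM (p.2 : M4 (ZMod 2))
  map_one' := by simp
  map_mul' p q := by
    simp only [Prod.fst_mul, Prod.snd_mul, Subgroup.coe_mul, Units.val_mul, map_mul, Matrix.smul_mul,
      Matrix.mul_smul, smul_smul]
    rw [mul_comm]

theorem smul_map_one {x : F} {A : M4 (ZMod 2)} (h : x • mapM A = (1 : M4 F)) : x = 1 ∧ A = 1 := by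
  have hx : x = 1 := by
    have e := congrFun (congrFun h 0) 0
    simp only [Matrix.smul_apply, RingHom.mapMatrix_apply, Matrix.map_apply, smul_eq_mul, Matrix.one_apply_eq] at e
    have h01 : A 0 0 = 0 ∨ A 0 0 = 1 := by
      generalize A 0 0 = z
      revert z
      decide
    rcases h01 with e' | e' <;> rw [e'] at e <;> simp at e
    exact e
  refine ⟨hx, ?_⟩
  rw [hx, one_smul] at h
  have hinj : Function.Injective (mapM (F := F)) := Matrix.map_injective (ι (F := F)).injective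
  exact hinj (by rw [h, map_one])

theorem lin_injective (ζ : Fˣ) : Function.Injective (lin (F := F) ζ) := by
  intro p q h
  rw [← mul_inv_eq_one]
  obtain ⟨h1, h2⟩ := smul_map_one (show lin ζ (p * q⁻¹) = 1 by rw [map_mul, h, ← map_mul, mul_inv_cancel, map_one])
  exact Prod.ext (Subtype.ext (Units.ext h1)) (Units.ext h2)

theorem res_decomp {k : Fin 24} {tu tv : ℕ → ZMod 2} {c : Fin chevE6.rank → Fˣ}
    (hs : ∀ s : Fin chevE6.nroots, chi chevE6 s c = chi chevE6 (blk 0) c ^ expS.getD s 0) :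
    let a := prodU cert_E6 psiPos (fun r => ι (tu r)) * (nW cert_E6 F (stab.getD (k : ℕ) []) * T c) *
        prodU cert_E6 psiPos (fun r => (ι (tv r) : F))
    Pres a ∧ res a = (chi chevE6 (blk 0) c : F) • mapM (PU (fun i : Fin 6 => tu (psiPos.getD (i : ℕ) 0)) *
      PP (ZMod 2) k * PU (fun i : Fin 6 => tv (psiPos.getD (i : ℕ) 0))) := by
  intro a
  obtain ⟨u1, u2⟩ := prodU_psiPos fun r => (ι (tu r) : F)
  obtain ⟨v1, v2⟩ := prodU_psiPos fun r => (ι (tv r) : F)
  obtain ⟨n1, n2⟩ := nW_block (F := F) k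
  obtain ⟨t1, t2⟩ := torus_block (c := c) (lam := chi chevE6 (blk 0) c) fun j => by
    rw [hs, show expS.getD ((blk j : Fin chevE6.nroots) : ℕ) 0 = 1 from expS_spec.2.1 j, pow_one]
  refine ⟨pres_mul (pres_mul u1 (pres_mul n1 t1)) v1, ?_⟩
  rw [res_mul v1, res_mul (pres_mul n1 t1), res_mul t1, u2, v2, n2, t2, map_mul, map_mul, map_PU, map_PP, map_PU]
  simp

/-- The centraliser. -/
theorem cent_equiv [Fintype F] (hF : Fintype.card F = 16) (hφ : Endo φ) (hf : Frame φ g n tA) {ζ : Fˣ}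
    (hζ : orderOf ζ = 5) :
    Nonempty (↥(cent hφ n (cA ζ)) ≃* ↥(Subgroup.zpowers ζ) × GL (Fin 4) (ZMod 2)) := by
  classical
  set C := cent hφ n (cA ζ) with hC
  have hpres : ∀ a ∈ C, Pres a := fun a ha => by
    obtain ⟨k, tu, tv, c, rfl, -, hs, -⟩ := decomp hF hφ hf hζ ha
    exact (res_decomp hs).1
  let R : ↥C →* M4 F :=
    { toFun := fun a => res (a : M F)
      map_one' := res_one
      map_mul' := fun a b => res_mul (hpres _ b.2) }
  have hker : ∀ a : ↥C, R a = 1 → a = 1 := by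
    rintro ⟨a, ha⟩ h
    obtain ⟨k, tu, tv, c, rfl, -, hs, hv0⟩ := decomp hF hφ hf hζ ha
    change res _ = 1 at h
    rw [(res_decomp hs).2] at h
    obtain ⟨hlam, hA⟩ := smul_map_one h
    have hk0 : k = 0 := eq_of_prod_one hA
    have hv : PU (fun i : Fin 6 => tv (psiPos.getD (i : ℕ) 0)) = 1 := by
      have e := (prodU_psiPos fun r => (ι (tv r) : F)).2
      rw [hv0 hk0, res_one] at e
      have hinj : Function.Injective (mapM (F := F)) := Matrix.map_injective (ι (F := F)).injective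
      exact hinj (by rw [map_PU, map_one]; exact e.symm)
    rw [hk0, PP_zero, mul_one, hv, mul_one] at hA
    have hu0 : ∀ r ∈ psiPos, tu r = 0 := fun r hr => by
      rw [psiPos_eq, List.mem_map] at hr
      obtain ⟨i, -, rfl⟩ := hr
      exact (PU_spec _).2 hA i
    have hu : ∀ (L : List ℕ), (∀ r ∈ L, tu r = 0) → prodU cert_E6 L (fun r => (ι (tu r) : F)) = 1 := by
      intro L
      induction L with
      | nil => intro _; rfl
      | cons r L ih =>
        intro h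
        rw [prodU_cons, ih fun s hs => h s (by simp [hs]), h r (by simp), map_zero, xG_zero, one_mul]
    have hc : T c = 1 :=
      (torusHom_eq_of_chi (c' := 1) fun s => by
        rw [hs, show chi chevE6 (blk 0) c = 1 from Units.ext hlam, one_pow, map_one]).trans (map_one _)
    refine Subtype.ext ?_
    show prodU cert_E6 psiPos _ * _ * prodU cert_E6 psiPos _ = 1
    rw [hu psiPos hu0, hv0 hk0, hk0, show stab.getD ((0 : Fin 24) : ℕ) [] = [] from rfl, nW_nil, hc]
    simp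
  have hRinj : Function.Injective R := fun a b h => by
    rw [← mul_inv_eq_one]
    exact hker _ (by rw [map_mul, h, ← map_mul, mul_inv_cancel, map_one])
  have hpow : ∀ x : Fˣ, x ^ 5 = 1 → x ∈ Subgroup.zpowers ζ := fun x hx => by
    have hroot : ((x : F)) ^ 5 = 1 := by rw [← Units.val_pow_eq_pow_val, hx, Units.val_one]
    have hprim : IsPrimitiveRoot (ζ : F) 5 := by
      rw [← hζ, ← orderOf_units]
      exact IsPrimitiveRoot.orderOf _
    obtain ⟨j, -, hj⟩ := hprim.eq_pow_of_pow_eq_one hroot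
    exact Subgroup.mem_zpowers_iff.2 ⟨j, Units.ext (by rw [zpow_natCast, Units.val_pow_eq_pow_val, hj])⟩
  have hin : ∀ a : ↥C, ∃ p, lin ζ p = R a := by
    intro a
    obtain ⟨k, tu, tv, c, e, h5, hs, -⟩ := decomp hF hφ hf hζ a.2
    obtain ⟨k', tu', tv', c', e', h5', hs', -⟩ := decomp hF hφ hf hζ (a⁻¹).2
    have r1 := (congrArg res e).trans (res_decomp (k := k) (tu := tu) (tv := tv) hs).2
    have r2 := (congrArg res e').trans (res_decomp (k := k') (tu := tu') (tv := tv') hs').2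
    change R a = _ at r1
    change R a⁻¹ = _ at r2
    generalize PU (fun i : Fin 6 => tu (psiPos.getD (i : ℕ) 0)) * PP (ZMod 2) k *
      PU (fun i : Fin 6 => tv (psiPos.getD (i : ℕ) 0)) = A at r1
    generalize PU (fun i : Fin 6 => tu' (psiPos.getD (i : ℕ) 0)) * PP (ZMod 2) k' *
      PU (fun i : Fin 6 => tv' (psiPos.getD (i : ℕ) 0)) = B at r2
    have hAB : A * B = 1 := by
      have h1 : R a * R a⁻¹ = 1 := by rw [← map_mul, mul_inv_cancel, map_one]
      rw [r1, r2, Matrix.smul_mul, Matrix.mul_smul, smul_smul, ← map_mul] at h1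
      exact (smul_map_one h1).2
    exact ⟨(⟨_, hpow _ h5⟩, ⟨A, B, hAB, mul_eq_one_comm.1 hAB⟩), r1.symm⟩
  choose ψ hψ using hin
  let Ψ : ↥C →* ↥(Subgroup.zpowers ζ) × GL (Fin 4) (ZMod 2) :=
    MonoidHom.mk' ψ fun a b => lin_injective ζ (by rw [map_mul, hψ, hψ, hψ, map_mul])
  refine ⟨MulEquiv.ofBijective Ψ ⟨fun a b h => hRinj (by rw [← hψ, ← hψ]; exact congrArg _ h), ?_⟩⟩
  -- every element is reached
  have hT0 : T (cA ζ) ∈ C :=
    ⟨T_mem _, tw_torus_fix hφ hf fun s => chi_cA_twist hζ s, Commute.refl _⟩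
  have hTres : R ⟨_, hT0⟩ = (ζ : F) • mapM (1 : M4 (ZMod 2)) := by
    rw [map_one]
    exact (torus_block fun j => by
      rw [chi_cA hζ, show valA.getD ((blk j : Fin chevE6.nroots) : ℕ) 0 = 1 from
        (expS_spec.2.2 (blk j)).symm.trans (expS_spec.2.1 j), pow_one]).2
  have hX : ∀ r ∈ psiAll, X r (1 : F) ∈ C := fun r hr => by
    obtain ⟨hmem, hval⟩ := trOf_spec r hr
    have hr' : r < chevE6.nroots := hval ▸ (trOf r).1.isLt
    refine ⟨CfsgLib.Chevalley.xG_mem_group cert_E6 _ _, ?_, ?_⟩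
    · rw [hf.x ⟨r, hr'⟩, one_pow, tA_fix (r := ⟨r, hr'⟩) hr]
    · have h1 := (chi_cA_one_iff hζ ⟨r, hr'⟩).2 hr
      have e := T_conj (cA ζ) ⟨r, hr'⟩ 1
      rw [h1, Units.val_one, one_mul] at e
      exact mul_inv_eq_iff_eq_mul.1 e
  rintro ⟨⟨x, hx⟩, A⟩
  obtain ⟨j, rfl⟩ := Subgroup.mem_zpowers_iff.1 hx
  have hA : ∃ a : ↥C, R a = mapM (A : M4 (ZMod 2)) := by
    refine gl_induction (P := fun A => ∃ a : ↥C, R a = mapM A) ⟨1, by rw [map_one, map_one]⟩ ?_ ?_ A
    · rintro A B ⟨a, ha⟩ ⟨b, hb⟩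
      exact ⟨a * b, by rw [map_mul, map_mul, ha, hb]⟩
    · intro r hr
      exact ⟨⟨_, hX r hr⟩, by rw [map_trM, map_one]; exact (xG_block hr 1).2⟩
  obtain ⟨a, ha⟩ := hA
  have hj : ∃ b : ↥C, R b = ((ζ ^ j : Fˣ) : F) • (1 : M4 F) := by
    let P : ↥(Subgroup.zpowers ζ) → Prop := fun z => ∃ b : ↥C, R b = ((z : Fˣ) : F) • (1 : M4 F)
    have hnat : ∀ i : ℕ, ∃ b : ↥C, R b = ((ζ ^ i : Fˣ) : F) • (1 : M4 F) := fun i => by
      refine ⟨⟨_, hT0⟩ ^ i, ?_⟩
      rw [map_pow, hTres, map_one, smul_pow, one_pow, Units.val_pow_eq_pow_val]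
    have hz : ζ ^ j = ζ ^ (j % 5).toNat := by
      rw [← zpow_natCast, Int.toNat_of_nonneg (Int.emod_nonneg _ (by norm_num)), ← zpow_mod_orderOf, hζ]
      rfl
    rw [hz]
    exact hnat _
  obtain ⟨b, hb⟩ := hj
  refine ⟨b * a, lin_injective ζ ?_⟩
  show lin ζ (ψ (b * a)) = _
  rw [hψ, map_mul, ha, hb, Matrix.smul_mul, one_mul]
  rfl

end CfsgLib.TwistedE6Five
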