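import Cfsg.Agent.Lib.TwistedE6Five.Data
import Cfsg.Agent.Lib.Chevalley.TwistedTorus

/-!
The endomorphism of `E₆` in characteristic two made of the graph symmetry and the squaring, and its twists by
monomial elements.
-/

set_option autoImplicit false
set_option maxRecDepth 100000
set_option linter.unusedSectionVars false

open Cfsg.Lie CfsgLib.Chevalley CfsgLib.Chevalley.Twist CfsgLib.ReflectionsSpinor.ChevField
open scoped MatrixGroups

namespace CfsgLib.TwistedE6Five

/-- The certificates of E6. -/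
theorem h6 : Full chevE6 auxE6 := CfsgLib.Twisted.fullE6

/-- The matrices. -/
abbrev M (F : Type*) [Field F] := GL chevE6.Idx F

variable {F : Type*} [Field F]

/-- Root elements. -/
noncomputable abbrev X (r : ℕ) (t : F) : M F := xG cert_E6 r t

theorem rho_val (s : Fin chevE6.nroots) : ((rhoP s : Fin chevE6.nroots) : ℕ) = CfsgLib.Twisted.graphSigmaE6 s := by
  show ((rhoFun s : Fin chevE6.nroots) : ℕ) = _
  rw [rhoFun, dif_pos (rho_spec s).1]

/-- The graph symmetry followed by squaring. -/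
structure Endo (φ : M F → M F) : Prop where
  /-- multiplicative on the group -/
  mul : ∀ a ∈ chevE6.group F, ∀ b ∈ chevE6.group F, φ (a * b) = φ a * φ b
  /-- on root elements -/
  x : ∀ (r : Fin chevE6.nroots) (t : F), φ (X r t) = X (rhoP r : Fin chevE6.nroots) (t ^ 2)

theorem exists_endo [Fintype F] [CharP F 2] {n : ℕ} (hn : n ≠ 0) (hF : Fintype.card F = 2 ^ n) :
    ∃ φ : M F → M F, Endo φ := by
  classical
  have h := CfsgLib.Twisted.graphAutE6_check
  simp only [Bool.and_eq_true] at h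
  obtain ⟨⟨⟨h1, h2⟩, h3⟩, -⟩ := h
  obtain ⟨s, hs⟩ := CfsgLib.Twisted.exists_graph_twist (F := F) cert_E6 CfsgLib.Twisted.tablesE6 h1 h2 h3
    (q := 2) (n := n) (Nat.prime_two.isPrimePow) hn hF
  let φ : M F → M F := fun g => if hg : g ∈ chevE6.group F then s ⟨g, hg⟩ else 1
  have hφ : ∀ (g : M F) (hg : g ∈ chevE6.group F), φ g = s ⟨g, hg⟩ := fun g hg => dif_pos hg
  refine ⟨φ, fun a ha b hb => ?_, fun r t => ?_⟩
  · rw [hφ _ (mul_mem ha hb), hφ _ ha, hφ _ hb]
    exact s.map_mul ⟨a, ha⟩ ⟨b, hb⟩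
  · rw [hφ _ (CfsgLib.Chevalley.xG_mem_group cert_E6 r t), hs _ r t r.isLt rfl, rho_val]
    congr 1
    rcases CfsgLib.Twisted.graphEtaE6_sign r with e | e <;>
      simp [CfsgLib.Twisted.graphTwist, e, CharTwo.neg_eq]

namespace Endo

variable {φ : M F → M F} (hφ : Endo φ)
include hφ

theorem one : φ 1 = 1 := by
  have h := hφ.mul 1 (one_mem _) 1 (one_mem _)
  rw [one_mul] at h
  exact mul_eq_left.1 h.symm

theorem inv {a : M F} (ha : a ∈ chevE6.group F) : φ a⁻¹ = (φ a)⁻¹ := by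
  refine eq_inv_of_mul_eq_one_left ?_
  rw [← hφ.mul _ (inv_mem ha) _ ha, inv_mul_cancel, hφ.one]

theorem mem {a : M F} (ha : a ∈ chevE6.group F) : φ a ∈ chevE6.group F := by
  induction ha using Subgroup.closure_induction with
  | mem g hg =>
    obtain ⟨r, t, e⟩ := hg
    rw [show g = X r t from Units.ext (by rw [coe_xG, ChevalleyDatum.x, dif_pos r.isLt]; exact e), hφ.x]
    exact CfsgLib.Chevalley.xG_mem_group cert_E6 _ _
  | one => rw [hφ.one]; exact one_mem _
  | mul a b ha hb iha ihb => rw [hφ.mul a ha b hb]; exact mul_mem iha ihb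
  | inv a ha ih => rw [hφ.inv ha]; exact inv_mem ih

theorem rootsU_map {S : Set ℕ} {v : M F} (hS : ∀ r ∈ S, r < chevE6.nroots) {T : Set ℕ}
    (hST : ∀ s : Fin chevE6.nroots, (s : ℕ) ∈ S → ((rhoP s : Fin chevE6.nroots) : ℕ) ∈ T)
    (hv : v ∈ rootsU chevE6 F S) : φ v ∈ rootsU chevE6 F T := by
  induction hv using rootsU_induction cert_E6 with
  | h1 => rw [hφ.one]; exact one_mem _
  | hx r hr t =>
    rw [hφ.x ⟨r, hS r hr⟩ t]
    exact xG_mem_rootsU cert_E6 (hST ⟨r, hS r hr⟩ hr) _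
  | hmul a b ha hb iha ihb =>
    rw [hφ.mul a (rootsU_le_group cert_E6 _ ha) b (rootsU_le_group cert_E6 _ hb)]
    exact mul_mem iha ihb

theorem ng (r : Fin chevE6.nroots) :
    ((rhoP (ngR cert_E6 r) : Fin chevE6.nroots) : ℕ) = chevE6.neg (rhoP r : Fin chevE6.nroots) := by
  revert r
  decide +kernel

theorem nG [CharP F 2] (r : Fin chevE6.nroots) (c : F) :
    φ (CfsgLib.Chevalley.nG cert_E6 r c) = CfsgLib.Chevalley.nG cert_E6 (rhoP r : Fin chevE6.nroots) (c ^ 2) := by
  have hx := fun (r : ℕ) (t : F) => CfsgLib.Chevalley.xG_mem_group cert_E6 r t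
  have e : φ (X (chevE6.neg r) (-c⁻¹)) = X (rhoP (ngR cert_E6 r) : Fin chevE6.nroots) ((-c⁻¹) ^ 2) :=
    hφ.x (ngR cert_E6 r) _
  rw [CfsgLib.Chevalley.nG, hφ.mul _ (mul_mem (hx _ _) (hx _ _)) _ (hx _ _), hφ.mul _ (hx _ _) _ (hx _ _),
    hφ.x, e, hφ.ng, CfsgLib.Chevalley.nG]
  congr 2
  rw [neg_sq, inv_pow, CharTwo.neg_eq]

theorem hG [CharP F 2] (r : Fin chevE6.nroots) (c : F) :
    φ (CfsgLib.Chevalley.hG cert_E6 r c) = CfsgLib.Chevalley.hG cert_E6 (rhoP r : Fin chevE6.nroots) (c ^ 2) := by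
  rw [CfsgLib.Chevalley.hG, hφ.mul _ (nG_mem_group cert_E6 _ _) _ (nG_mem_group cert_E6 _ _), hφ.nG, hφ.nG,
    CfsgLib.Chevalley.hG, neg_one_sq, CharTwo.neg_eq]

theorem diagonal [CharP F 2] {t : M F} (ht : t ∈ chevE6.diagonalSubgroup F) :
    φ t ∈ chevE6.diagonalSubgroup F := by
  induction ht using Subgroup.closure_induction with
  | mem g hg =>
    obtain ⟨r, c, hr, hc, e⟩ := hg
    rw [show g = CfsgLib.Chevalley.hG cert_E6 r c from Units.ext (by rw [coe_hG]; exact e), hφ.hG ⟨r, hr⟩]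
    exact Subgroup.subset_closure ⟨_, _, (rhoP ⟨r, hr⟩).isLt, pow_ne_zero _ hc, coe_hG cert_E6 _ _⟩
  | one => rw [hφ.one]; exact one_mem _
  | mul a b ha hb iha ihb =>
    rw [hφ.mul a (diagonal_le_group cert_E6 ha) b (diagonal_le_group cert_E6 hb)]
    exact mul_mem iha ihb
  | inv a ha ih => rw [hφ.inv (diagonal_le_group cert_E6 ha)]; exact inv_mem ih

theorem monomial [CharP F 2] {n : M F} (hn : n ∈ chevE6.monomialSubgroup F) :
    φ n ∈ chevE6.monomialSubgroup F := by
  obtain ⟨l, t, ht, rfl⟩ := (mem_monomial_iff h6).1 hn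
  have hl : ∀ l : List (Fin chevE6.rank), nW cert_E6 F l ∈ chevE6.group F := fun l =>
    monomial_le_group cert_E6 (nW_mem_monomial h6 l)
  rw [hφ.mul _ (hl l) _ (diagonal_le_group cert_E6 ht)]
  refine mul_mem ?_ (diagonal_le_monomial (hφ.diagonal ht))
  clear hn
  induction l with
  | nil => rw [nW_nil, hφ.one]; exact one_mem _
  | cons i l ih =>
    rw [nW_cons, hφ.mul _ (nG_mem_group cert_E6 _ _) _ (hl l)]
    refine mul_mem ?_ ih
    have e := hφ.nG (smp cert_E6 i) (1 : F)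
    rw [show ((smp cert_E6 i : Fin chevE6.nroots) : ℕ) = chevE6.simple i from rfl, one_pow] at e
    rw [e]
    exact Subgroup.mem_sup_right (Subgroup.subset_closure ⟨_, (rhoP _).isLt, coe_nG cert_E6 _ _⟩)

/-- It commutes with field endomorphisms. -/
theorem push_comm (f : F →+* F) {a : M F} (ha : a ∈ chevE6.group F) :
    φ (push chevE6 f a) = push chevE6 f (φ a) := by
  induction ha using Subgroup.closure_induction with
  | mem g hg =>
    obtain ⟨r, t, e⟩ := hg
    rw [show g = X r t from Units.ext (by rw [coe_xG, ChevalleyDatum.x, dif_pos r.isLt]; exact e), push_xG, hφ.x,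
      hφ.x, push_xG, map_pow]
  | one => rw [map_one, hφ.one, map_one]
  | mul a b ha hb iha ihb =>
    rw [map_mul, hφ.mul _ (push_mem_group cert_E6 f ha) _ (push_mem_group cert_E6 f hb), iha, ihb, hφ.mul _ ha _ hb,
      map_mul]
  | inv a ha ih => rw [map_inv, hφ.inv (push_mem_group cert_E6 f ha), ih, hφ.inv ha, map_inv]

/-- Its square is a field endomorphism. -/
theorem twice (f : F →+* F) (hf : ∀ t, f t = t ^ 4) {a : M F} (ha : a ∈ chevE6.group F) :
    φ (φ a) = push chevE6 f a := by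
  induction ha using Subgroup.closure_induction with
  | mem g hg =>
    obtain ⟨r, t, e⟩ := hg
    rw [show g = X r t from Units.ext (by rw [coe_xG, ChevalleyDatum.x, dif_pos r.isLt]; exact e), push_xG, hφ.x,
      hφ.x, show rhoP (rhoP r) = r from (rho_spec r).2, hf, ← pow_mul]
  | one => rw [hφ.one, hφ.one, map_one]
  | mul a b ha hb iha ihb => rw [hφ.mul _ ha _ hb, hφ.mul _ (hφ.mem ha) _ (hφ.mem hb), iha, ihb, map_mul]
  | inv a ha ih => rw [hφ.inv ha, hφ.inv (hφ.mem ha), ih, map_inv]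

end Endo

/-- A monomial element over the field with two elements has all its scalars one. -/
theorem scalars_one [CharP F 2] {n₀ : M (ZMod 2)} {π π' : Equiv.Perm (Fin chevE6.nroots)}
    {η₀ : Fin chevE6.nroots → ZMod 2} {η : Fin chevE6.nroots → F} (hA₀ : Acts cert_E6 n₀ π' η₀)
    (hA : Acts cert_E6 (push chevE6 (ZMod.castHom dvd_rfl F) n₀) π η) (s : Fin chevE6.nroots) : η s = 1 := by
  have e := hA.col (Sum.inr (π s)) s
  rw [if_pos rfl] at e
  have e2 : ((push chevE6 (ZMod.castHom dvd_rfl F) n₀ : M F) : Matrix chevE6.Idx chevE6.Idx F)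
      (Sum.inr (π s)) (Sum.inr s) =
      ZMod.castHom dvd_rfl F ((n₀ : Matrix chevE6.Idx chevE6.Idx (ZMod 2)) (Sum.inr (π s)) (Sum.inr s)) := rfl
  rw [e2, hA₀.col] at e
  by_cases hπ : (Sum.inr (π s) : chevE6.Idx) = Sum.inr (π' s)
  · rw [if_pos hπ] at e
    have key : ∀ x : ZMod 2, x ≠ 0 → x = 1 := by decide
    rw [key _ (hA₀.ne_zero s), map_one] at e
    exact e.symm
  · rw [if_neg hπ, map_zero] at e
    exact absurd e.symm (hA.ne_zero s)

/-- A product of fundamental monomial elements only permutes the root elements. -/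
theorem nW_conj [CharP F 2] (l : List (Fin chevE6.rank)) (s : Fin chevE6.nroots) (t : F) :
    nW cert_E6 F l * X s t * (nW cert_E6 F l)⁻¹ = X (wPerm cert_E6 l s : Fin chevE6.nroots) t := by
  obtain ⟨η, hA⟩ := acts_nW (F := F) h6 l
  obtain ⟨η₀, hA₀⟩ := acts_nW (F := ZMod 2) h6 l
  have h1 : η s = 1 := scalars_one hA₀ (by rw [push_nW]; exact hA) s
  have e := hA.conj s t
  rw [h1, one_mul] at e
  exact e

/-- The monomial element of a step only permutes the root elements. -/
theorem nG_conj [CharP F 2] {S : Step} (hS : wPerm cert_E6 S.1 (smp cert_E6 S.2.1) = S.2.2.1)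
    (s : Fin chevE6.nroots) (t : F) :
    CfsgLib.Chevalley.nG cert_E6 S.2.2.1 (1 : F) * X s t * (CfsgLib.Chevalley.nG cert_E6 S.2.2.1 (1 : F))⁻¹ =
      X (refl S s : Fin chevE6.nroots) t := by
  obtain ⟨η, hA⟩ := exists_acts_nG (F := F) h6 hS
  obtain ⟨η₀, hA₀⟩ := exists_acts_nG (F := ZMod 2) h6 hS
  have h1 : η s = 1 := scalars_one hA₀ (by rw [push_nG, map_one]; exact hA) s
  have e := hA.conj s t
  rw [h1, one_mul] at e
  exact e

/-- The endomorphism followed by conjugation. -/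
noncomputable def tw (φ : M F → M F) (n : M F) (a : M F) : M F := n * φ a * n⁻¹

/-- `g` carries the twist by `n`, whose root permutation is `τ`, to the endomorphism. -/
structure Frame (φ : M F → M F) (g n : M F) (τ : Equiv.Perm (Fin chevE6.nroots)) : Prop where
  /-- in the group -/
  g_mem : g ∈ chevE6.group F
  /-- in the group -/
  n_mem : n ∈ chevE6.group F
  /-- monomial -/
  n_mono : n ∈ chevE6.monomialSubgroup F
  /-- the coboundary -/
  eq : φ g = g * n
  /-- the twist on root elements -/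
  x : ∀ (r : Fin chevE6.nroots) (t : F), tw φ n (X r t) = X (τ r : Fin chevE6.nroots) (t ^ 2)

theorem tw_mul {φ : M F → M F} (hφ : Endo φ) {n a b : M F} (ha : a ∈ chevE6.group F) (hb : b ∈ chevE6.group F) :
    tw φ n (a * b) = tw φ n a * tw φ n b := by
  simp only [tw, hφ.mul a ha b hb]
  group

theorem tw_inv {φ : M F → M F} (hφ : Endo φ) {n a : M F} (ha : a ∈ chevE6.group F) :
    tw φ n a⁻¹ = (tw φ n a)⁻¹ := by
  simp only [tw, hφ.inv ha]
  group

theorem tw_one {φ : M F → M F} (hφ : Endo φ) (n : M F) : tw φ n 1 = 1 := by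
  simp [tw, hφ.one]

/-- The twist as a homomorphism of the group. -/
noncomputable def twHom {φ : M F → M F} (hφ : Endo φ) (n : M F) : ↥(chevE6.group F) →* M F where
  toFun a := tw φ n a
  map_one' := tw_one hφ n
  map_mul' a b := tw_mul hφ a.2 b.2

theorem slFun_hom {G H : Type*} [Group G] [Group H] [DecidableEq F] (ψ : G →* H) (f : F →+* F) {x y : F → G}
    {x' y' : F → H} (hx : ∀ t, ψ (x t) = x' (f t)) (hy : ∀ t, ψ (y t) = y' (f t)) (z : SL(2, F)) :
    ψ (slFun x y z) = slFun x' y' (Matrix.SpecialLinearGroup.map f z) := by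
  have e : ∀ i j, (Matrix.SpecialLinearGroup.map f z : SL(2, F)).1 i j = f (z.1 i j) := fun _ _ => rfl
  simp only [slFun, e, map_eq_zero]
  split_ifs <;> simp [slH, slN, map_mul, hx, hy, map_neg, map_inv₀, map_div₀]

/-- The twist on a rank one subgroup. -/
theorem Frame.slFun_eq [DecidableEq F] [CharP F 2] {φ : M F → M F} (hφ : Endo φ) {g n : M F}
    {τ : Equiv.Perm (Fin chevE6.nroots)} (hf : Frame φ g n τ) (r r' : Fin chevE6.nroots) (z : SL(2, F)) :
    slFun (fun t => X r t) (fun t => X r' t) z ∈ chevE6.group F ∧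
      tw φ n (slFun (fun t => X r t) (fun t => X r' t) z) =
      slFun (fun t => X (τ r : Fin chevE6.nroots) t) (fun t => X (τ r' : Fin chevE6.nroots) t)
        (Matrix.SpecialLinearGroup.map (frobenius F 2) z) := by
  have hm : slFun (fun t => X r t) (fun t => X r' t) z ∈ chevE6.group F :=
    slFun_mem (fun t => CfsgLib.Chevalley.xG_mem_group cert_E6 _ t) (fun t => CfsgLib.Chevalley.xG_mem_group cert_E6 _ t) z
  refine ⟨hm, ?_⟩
  let xs : F → ↥(chevE6.group F) := fun t => ⟨X r t, CfsgLib.Chevalley.xG_mem_group cert_E6 _ t⟩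
  let ys : F → ↥(chevE6.group F) := fun t => ⟨X r' t, CfsgLib.Chevalley.xG_mem_group cert_E6 _ t⟩
  have e : ((slFun xs ys z : ↥(chevE6.group F)) : M F) = slFun (fun t => X r t) (fun t => X r' t) z := by
    have h := slFun_hom (chevE6.group F).subtype (RingHom.id F) (x := xs) (y := ys)
      (x' := fun t => X r t) (y' := fun t => X r' t) (fun t => rfl) (fun t => rfl) z
    rwa [show Matrix.SpecialLinearGroup.map (RingHom.id F) z = z from Subtype.ext (by ext i j; rfl)] at h
  rw [← e]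
  exact slFun_hom (twHom hφ n) (frobenius F 2) (x := xs) (y := ys)
    (x' := fun t => X (τ r : Fin chevE6.nroots) t) (y' := fun t => X (τ r' : Fin chevE6.nroots) t)
    (fun t => hf.x r t) (fun t => hf.x r' t) z

/-- A solution of the rank one equation. -/
def stepMat [CharP F 2] (b c : F) (h : c + b = 1) : SL(2, F) :=
  ⟨!![1, 1; b, c], by
    rw [Matrix.det_fin_two_of, one_mul, one_mul, sub_eq_add_neg, CharTwo.neg_eq, h]⟩

theorem commute_slFun [DecidableEq F] {a : M F} {x y : F → M F} (hx : ∀ t, Commute (x t) a)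
    (hy : ∀ t, Commute (y t) a) (z : SL(2, F)) : Commute (slFun x y z) a :=
  Subgroup.mem_centralizer_singleton_iff.1 (slFun_mem
    (fun t => Subgroup.mem_centralizer_singleton_iff.2 (hx t).eq)
    (fun t => Subgroup.mem_centralizer_singleton_iff.2 (hy t).eq) z)

theorem Frame.step [Fintype F] [CharP F 2] {φ : M F → M F} (hφ : Endo φ) (hF : Fintype.card F = 16)
    {g n : M F} {τ : Equiv.Perm (Fin chevE6.nroots)} (hf : Frame φ g n τ) (S : Step)
    (hS : wPerm cert_E6 S.1 (smp cert_E6 S.2.1) = S.2.2.1)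
    (hneg : τ (ngR cert_E6 S.2.2.1) = ngR cert_E6 (τ S.2.2.1))
    (hm : τ S.2.2.1 = S.2.2.1 ∨ (τ (τ S.2.2.1) = S.2.2.1 ∧
      τ (τ (ngR cert_E6 S.2.2.1)) = ngR cert_E6 S.2.2.1 ∧
      orthB chevE6 (τ S.2.2.1 : Fin chevE6.nroots) S.2.2.1 = true)) :
    ∃ g' n', Frame φ g' n' (refl S * τ) := by
  classical
  set r := S.2.2.1 with hr
  let x₀ : F → M F := fun t => X r t
  let y₀ : F → M F := fun t => X (ngR cert_E6 r : Fin chevE6.nroots) t
  have R : SLRel x₀ y₀ := slRel_root h6 r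
  -- it is enough to solve `θ a = a * nG r 1`
  suffices ∃ a ∈ chevE6.group F, tw φ n a = a * CfsgLib.Chevalley.nG cert_E6 r 1 by
    obtain ⟨a, ha, hθ⟩ := this
    refine ⟨g * a, CfsgLib.Chevalley.nG cert_E6 r 1 * n, mul_mem hf.g_mem ha,
      mul_mem (nG_mem_group cert_E6 _ _) hf.n_mem, mul_mem
        (Subgroup.mem_sup_right (Subgroup.subset_closure ⟨_, r.isLt, coe_nG cert_E6 _ _⟩)) hf.n_mono, ?_, ?_⟩
    · rw [hφ.mul _ hf.g_mem _ ha, hf.eq]
      calc g * n * φ a = g * tw φ n a * n := by simp only [tw]; group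
        _ = _ := by rw [hθ]; group
    · intro s t
      have e : tw φ (CfsgLib.Chevalley.nG cert_E6 r 1 * n) (X s t) = CfsgLib.Chevalley.nG cert_E6 r 1 *
          tw φ n (X s t) * (CfsgLib.Chevalley.nG cert_E6 r 1)⁻¹ := by
        simp only [tw]; group
      rw [e, hf.x, nG_conj hS, Equiv.Perm.mul_apply]
  obtain ⟨b, hb⟩ : ∃ b : F, b ^ 4 + b = 1 := by
    obtain ⟨c, hc⟩ : ∃ c : F, c ^ 4 + c ≠ 0 := by
      by_contra hcon
      push Not at hcon
      let P : Polynomial F := Polynomial.X ^ 4 + Polynomial.X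
      have hdeg : P.natDegree = 4 :=
        (Polynomial.natDegree_add_eq_left_of_natDegree_lt (by simp)).trans (Polynomial.natDegree_X_pow 4)
      have hP : P ≠ 0 := fun e => by simp [e] at hdeg
      have hroots : (Finset.univ : Finset F).val ≤ P.roots := by
        rw [Multiset.le_iff_subset Finset.univ.nodup]
        intro x _
        rw [Polynomial.mem_roots hP]
        simp [P, Polynomial.IsRoot, hcon x]
      have := (Multiset.card_le_card hroots).trans (Polynomial.card_roots' P)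
      rw [Finset.card_val, Finset.card_univ, hF, hdeg] at this
      omega
    refine ⟨c / (c ^ 4 + c), ?_⟩
    have h16 : c ^ 16 = c := by rw [← hF]; exact FiniteField.pow_card c
    have he : (c ^ 4 + c) ^ 4 = c ^ 4 + c := by
      rw [show (4 : ℕ) = 2 ^ 2 from rfl, add_pow_char_pow, ← pow_mul,
        show 2 ^ 2 * 2 ^ 2 = 16 from rfl, h16, add_comm]
    rw [div_pow, he, ← add_div, div_self hc]
  have hfr : ∀ z : F, frobenius F 2 z = z ^ 2 := fun z => rfl
  have hW : ∀ z : SL(2, F), slFun x₀ y₀ (z * slW) = slFun x₀ y₀ z * CfsgLib.Chevalley.nG cert_E6 r 1 := fun z => by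
    rw [slFun_mul R z slW, slFun_slW R]
    rfl
  rcases hm with hm | ⟨hm, hm', ho⟩
  · have hb1 : (b ^ 2 + b) ^ 2 + (b ^ 2 + b) = 1 := by
      rw [CharTwo.add_sq, ← pow_mul, add_assoc, ← add_assoc (b ^ 2) (b ^ 2) b, CharTwo.add_self_eq_zero, zero_add, hb]
    set x : SL(2, F) := stepMat (b ^ 2 + b) ((b ^ 2 + b) ^ 2) hb1 with hx
    refine ⟨slFun x₀ y₀ x, (hf.slFun_eq hφ r (ngR cert_E6 r) x).1, ?_⟩
    rw [(hf.slFun_eq hφ r (ngR cert_E6 r) x).2, hneg, hm, ← hW]
    congr 1
    apply Subtype.ext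
    show (x.1).map (frobenius F 2) = x.1 * slW.1
    have e : ((b ^ 2 + b) ^ 2) ^ 2 = b ^ 2 + b := by
      have d2 : (b ^ 2 + b) ^ 2 = 1 + (b ^ 2 + b) := by
        conv_rhs => rw [← hb1, add_assoc, CharTwo.add_self_eq_zero, add_zero]
      rw [d2, CharTwo.add_sq, one_pow, d2, ← add_assoc, CharTwo.add_self_eq_zero, zero_add]
    ext i j
    fin_cases i <;> fin_cases j <;>
      simp [hx, stepMat, slW, Matrix.mul_apply, Fin.sum_univ_two, hfr, e, CharTwo.neg_eq]
  · set x : SL(2, F) := stepMat b (b ^ 4) hb with hx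
    set v := slFun x₀ y₀ x with hv
    have hv2 := hf.slFun_eq hφ r (ngR cert_E6 r) x
    set r₁ := τ r with hr₁
    set r₁' := τ (ngR cert_E6 r) with hr₁'
    set x₁ : SL(2, F) := Matrix.SpecialLinearGroup.map (frobenius F 2) x with hx₁
    set w := slFun (fun t => X r₁ t) (fun t => X r₁' t) x₁ with hw
    have hw2 := hf.slFun_eq hφ r₁ r₁' x₁
    have hww : tw φ n w = v * CfsgLib.Chevalley.nG cert_E6 r 1 := by
      rw [hw2.2, hr₁, hr₁', hm, hm', hv, ← hW]
      congr 1
      apply Subtype.ext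
      show ((x.1).map (frobenius F 2)).map (frobenius F 2) = x.1 * slW.1
      have e : ((b ^ 4) ^ 2) ^ 2 = b := by
        rw [← pow_mul, ← pow_mul]
        show b ^ 16 = b
        rw [← hF]
        exact FiniteField.pow_card b
      ext i j
      fin_cases i <;> fin_cases j <;>
        simp [hx, stepMat, slW, Matrix.mul_apply, Fin.sum_univ_two, hfr, e, CharTwo.neg_eq] <;> ring
    have hc : Commute w v := by
      simp only [orthB, List.all_cons, List.all_nil, Bool.and_true, Bool.and_eq_true,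
        decide_eq_true_eq, List.isEmpty_iff] at ho
      obtain ⟨⟨⟨h11, h12⟩, h13⟩, ⟨⟨h21, h22⟩, h23⟩, ⟨⟨h31, h32⟩, h33⟩, ⟨⟨h41, h42⟩, h43⟩⟩ := ho
      have hD : chevE6 ∈ [chevG2, chevB2, chevD4, chevF4, chevE6, chevE7, chevE8] := by simp
      have hn : ((r₁' : Fin chevE6.nroots) : ℕ) = chevE6.neg r₁ := by rw [hneg]; rfl
      rw [← hn] at h31 h32 h33 h41 h42 h43
      have hnr : chevE6.neg r < chevE6.nroots := cert_E6.wf.neg_lt r r.isLt
      have key : ∀ t, Commute (x₀ t) w ∧ Commute (y₀ t) w := fun t =>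
        ⟨(commute_slFun (fun u => commute_xG_of_orth hD cert_E6 r.isLt r₁.isLt h11 h12 h13 t u)
            (fun u => commute_xG_of_orth hD cert_E6 r.isLt r₁'.isLt h31 h32 h33 t u) x₁).symm,
         (commute_slFun (fun u => commute_xG_of_orth hD cert_E6 hnr r₁.isLt h21 h22 h23 t u)
            (fun u => commute_xG_of_orth hD cert_E6 hnr r₁'.isLt h41 h42 h43 t u) x₁).symm⟩
      exact (commute_slFun (fun t => (key t).1) (fun t => (key t).2) x).symm
    refine ⟨v * w, mul_mem hv2.1 hw2.1, ?_⟩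
    rw [tw_mul hφ hv2.1 hw2.1, hv2.2, hww, ← mul_assoc, hc.eq]

theorem exists_frame [Fintype F] [CharP F 2] {φ : M F → M F} (hφ : Endo φ) (hF : Fintype.card F = 16) :
    ∀ L : List Step, stepsOK L = true → ∃ g n, Frame φ g n (framePerm L) := by
  intro L
  induction L with
  | nil =>
    intro _
    refine ⟨1, 1, one_mem _, one_mem _, one_mem _, by rw [hφ.one, one_mul], fun r t => ?_⟩
    simp only [tw, one_mul, inv_one, mul_one, framePerm]
    exact hφ.x r t
  | cons S L ih =>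
    intro h
    simp only [stepsOK, Bool.and_eq_true, Bool.or_eq_true, decide_eq_true_eq, beq_iff_eq] at h
    obtain ⟨hL, ⟨hS, hneg⟩, hm⟩ := h
    obtain ⟨g, n, hf⟩ := ih hL
    exact hf.step hφ hF S hS (Fin.ext hneg) (hm.imp (fun x => x.2) (fun x => ⟨x.1.1.2, x.1.2, x.2⟩))

end CfsgLib.TwistedE6Five
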