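import Cfsg.Agent.Lib.TwistedE6Five.Endo
import Cfsg.Agent.Lib.Twisted.TorusCounts

/-!
`²E₆(2)` is the whole group of fixed points of the graph symmetry followed by squaring on `E₆` over the field
with sixteen elements.
-/

set_option autoImplicit false
set_option maxRecDepth 100000
set_option linter.unusedSectionVars false

open Cfsg.Lie CfsgLib.Chevalley CfsgLib.ReflectionsSpinor.ChevField

namespace CfsgLib.TwistedE6Five

variable {K F : Type*} [Field K] [Field F] [Fintype F] [CharP F 2]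

/-- An element fixed by the fourth power map lies over the field with four elements. -/
theorem mem_range_of_fixed (hF : Fintype.card F = 16) (i : K →+* F) (hi : ∀ y : F, y ^ 4 = y → ∃ x, i x = y)
    {g : M F} (hg : g ∈ chevE6.group F)
    (hfix : push chevE6 (iterateFrobenius F 2 2) g = g) : ∃ g₀ ∈ chevE6.group K, push chevE6 i g₀ = g := by
  have h := h6
  let σ : F ≃+* F := RingEquiv.ofBijective (iterateFrobenius F 2 2)
    (Finite.injective_iff_bijective.1 (iterateFrobenius F 2 2).injective)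
  have hσ : ∀ y, σ y = y ^ 4 := fun y => by
    show iterateFrobenius F 2 2 y = _
    rw [iterateFrobenius_def]
    norm_num
  have hi' : ∀ y, σ y = y → ∃ x, i x = y := fun y hy => hi y (by rw [← hσ, hy])
  change push chevE6 σ.toRingHom g = g at hfix
  obtain ⟨u, hu, n, hn, π, η, hA, u', hu', rfl⟩ := exists_canonical h hg
  obtain ⟨l, t, ht, rfl⟩ := (mem_monomial_iff h).1 hn
  rw [diagonalSubgroup_eq_range h] at ht
  obtain ⟨c, rfl⟩ := ht
  obtain ⟨η₀, hη₀⟩ := acts_nW (F := F) h l
  have hA' := hη₀.mul (acts_torus h.cert fun k => Units.map (σ.toRingHom : F →* F) (c k))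
  have hAc := hη₀.mul (acts_torus h.cert c)
  have hperm : π = wPerm h.cert l * 1 := hA.perm_eq hAc
  subst hperm
  have himg : push chevE6 σ.toRingHom (nW h.cert F l * torusHom chevE6 F c) =
      nW h.cert F l * torusHom chevE6 F (fun k => Units.map (σ.toRingHom : F →* F) (c k)) := by
    rw [map_mul, push_nW, push_torus]
  have hm : push chevE6 σ.toRingHom (nW h.cert F l * torusHom chevE6 F c) ∈ chevE6.monomialSubgroup F := by
    rw [himg, mem_monomial_iff h]
    refine ⟨l, _, ?_, rfl⟩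
    rw [diagonalSubgroup_eq_range h]
    exact ⟨_, rfl⟩
  rw [map_mul, map_mul] at hfix
  obtain ⟨e1, e2, e3⟩ := canonical_unique h (push_rootsU h.cert σ.toRingHom hu) hu hm hn
    (himg ▸ hA') hA (push_rootsU h.cert σ.toRingHom hu') hu' hfix
  obtain ⟨u₀, hu₀, rfl⟩ := exists_fixed_posU h hi' hu e1
  obtain ⟨v₀, hv₀, rfl⟩ := exists_fixed_posU h hi'
    (rootsU_mono (T := {r | chevE6.IsPosRoot r}) (fun r hr => hr.1) hu') e3
  rw [himg] at e2
  have e2' := mul_left_cancel e2
  -- the torus coordinates are fixed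
  set z : Fin chevE6.rank → Fˣ := (fun k => Units.map (σ.toRingHom : F →* F) (c k)) * c⁻¹ with hz
  have hzk : ∀ k, z k = c k ^ 3 := by
    intro k
    have e : Units.map (σ.toRingHom : F →* F) (c k) = c k ^ 4 := Units.ext (by
      show σ (c k : F) = _
      rw [hσ, Units.val_pow_eq_pow_val])
    show Units.map (σ.toRingHom : F →* F) (c k) * (c k)⁻¹ = _
    rw [e, pow_succ, mul_inv_cancel_right]
  have hker : ∀ j : Fin chevE6.rank, chi chevE6 (chevE6.simple j) z = 1 := by
    intro j
    rw [hz, map_mul, map_inv, mul_inv_eq_one]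
    have e := congrArg (fun g : M F => (g : Matrix chevE6.Idx chevE6.Idx F) (Sum.inr (smp cert_E6 j))
      (Sum.inr (smp cert_E6 j))) e2'
    simp only [coe_torusHom, Matrix.diagonal_apply_eq, Sum.elim_inr] at e
    exact Units.ext e
  obtain ⟨k0, k1, k2, k3, k4, k5⟩ := CfsgLib.Twisted.ker_E6 hker
  have hz3 : ∀ k : Fin chevE6.rank, z k ^ 3 = 1 := by
    intro k
    change Fin 6 at k
    fin_cases k
    · exact k0
    · show z (1 : Fin 6) ^ 3 = 1
      rw [k1, one_pow]
    · show z (2 : Fin 6) ^ 3 = 1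
      rw [k2, ← pow_mul, mul_comm, pow_mul, k0, one_pow]
    · show z (3 : Fin 6) ^ 3 = 1
      rw [k3, one_pow]
    · show z (4 : Fin 6) ^ 3 = 1
      rw [k4, k0]
    · show z (5 : Fin 6) ^ 3 = 1
      rw [k5, ← pow_mul, mul_comm, pow_mul, k0, one_pow]
  have h15 : ∀ k, c k ^ 15 = 1 := fun k => by
    classical
    have e : Fintype.card Fˣ = 15 := by rw [Fintype.card_units, hF]
    rw [← e]
    exact pow_card_eq_one
  have hc : ∀ k, σ (c k : F) = c k := fun k => by
    have h3 : c k ^ 3 = 1 := by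
      have h9 : c k ^ 9 = 1 := by
        have := hz3 k
        rw [hzk, ← pow_mul] at this
        exact this
      have := pow_gcd_eq_one.2 ⟨h9, h15 k⟩
      exact this
    rw [hσ, ← Units.val_pow_eq_pow_val, pow_succ, h3, one_mul]
  choose c₀ hc₀ using fun k => hi' (c k : F) (hc k)
  have hc0 : ∀ k, c₀ k ≠ 0 := fun k h0 => (c k).ne_zero (by rw [← hc₀ k, h0, map_zero])
  set d : Fin chevE6.rank → Kˣ := fun k => Units.mk0 (c₀ k) (hc0 k)
  have hn₀ : nW h.cert K l * torusHom chevE6 K d ∈ chevE6.monomialSubgroup K := by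
    rw [mem_monomial_iff h]
    refine ⟨l, _, ?_, rfl⟩
    rw [diagonalSubgroup_eq_range h]
    exact ⟨_, rfl⟩
  refine ⟨u₀ * (nW h.cert K l * torusHom chevE6 K d) * v₀,
    mul_mem (mul_mem hu₀ (monomial_le_group h.cert hn₀)) hv₀, ?_⟩
  rw [map_mul, map_mul, map_mul, push_nW, push_torus]
  have hd : (fun k => Units.map (i : K →* F) (d k)) = c := funext fun k => Units.ext (hc₀ k)
  rw [hd]

variable [Fintype K] [CharP K 2]

/-- The endomorphisms over the two fields agree. -/
theorem endo_push {φ : M F → M F} {ψ : M K → M K} (hφ : Endo φ) (hψ : Endo ψ) (i : K →+* F) {a : M K}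
    (ha : a ∈ chevE6.group K) : φ (push chevE6 i a) = push chevE6 i (ψ a) := by
  induction ha using Subgroup.closure_induction with
  | mem g hg =>
    obtain ⟨r, t, e⟩ := hg
    rw [show g = X r t from Units.ext (by rw [coe_xG, ChevalleyDatum.x, dif_pos r.isLt]; exact e), push_xG, hφ.x,
      hψ.x, push_xG, map_pow]
  | one => rw [map_one, hφ.one, hψ.one, map_one]
  | mul a b ha hb iha ihb =>
    rw [map_mul, hφ.mul _ (push_mem_group cert_E6 i ha) _ (push_mem_group cert_E6 i hb), iha, ihb, hψ.mul _ ha _ hb,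
      map_mul]
  | inv a ha ih => rw [map_inv, hφ.inv (push_mem_group cert_E6 i ha), ih, hψ.inv ha, map_inv]

/-- The fixed points of the endomorphism in `E₆(4)`. -/
def fixedSub {ψ : M K → M K} (hψ : Endo ψ) : Subgroup (M K) where
  carrier := {a | a ∈ chevE6.group K ∧ ψ a = a}
  one_mem' := ⟨one_mem _, hψ.one⟩
  mul_mem' := fun {a b} ha hb => ⟨mul_mem ha.1 hb.1, by rw [hψ.mul _ ha.1 _ hb.1, ha.2, hb.2]⟩
  inv_mem' := fun {a} ha => ⟨inv_mem ha.1, by rw [hψ.inv ha.1, ha.2]⟩

open CfsgLib.Twisted in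
theorem twisted_eq_fixed (hK : Fintype.card K = 4) {ψ : M K → M K} (hψ : Endo ψ) :
    twistedE6 K 2 = fixedSub hψ := by
  classical
  have hq : IsPrimePow 2 := Nat.prime_two.isPrimePow
  have hK' : Fintype.card K = 2 ^ 2 := hK
  have hη : ∀ (r : ℕ) (t : K), graphTwist graphEtaE6 2 r t = t ^ 2 := fun r t => by
    rcases graphEtaE6_sign r with e | e <;> simp [graphTwist, e, CharTwo.neg_eq]
  let σ : ↥(chevE6.group K) →* M K := MonoidHom.mk' (fun a => ψ a) fun a b => hψ.mul _ a.2 _ b.2
  have hσ : ∀ (g : ↥(chevE6.group K)) (r : ℕ) (t : K), r < chevE6.nroots →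
      (g : M K) = xG cert_E6 r t → σ g = xG cert_E6 (graphSigmaE6 r) (graphTwist graphEtaE6 2 r t) := by
    intro g r t hr e
    show ψ g = _
    rw [e, hη, ← rho_val ⟨r, hr⟩]
    exact hψ.x ⟨r, hr⟩ t
  have hG := e6Twist_isTwist hq hK'
  have hle : twistedE6 K 2 ≤ fixedSub hψ := by
    intro a ha
    refine ⟨hG.le ha, ?_⟩
    obtain ⟨s, hs, hfix⟩ := hG.exists_map
    have key : ∀ a (ha : a ∈ chevE6.group K), s ⟨a, ha⟩ = ψ a := by
      intro a ha
      induction ha using Subgroup.closure_induction with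
      | mem g hg =>
        obtain ⟨r, t, e⟩ := hg
        have eg : g = X r t := Units.ext (by rw [coe_xG, ChevalleyDatum.x, dif_pos r.isLt]; exact e)
        subst eg
        rw [hs _ r t r.isLt rfl, hψ.x, hη, rho_val]
      | one => rw [hψ.one]; exact map_one s
      | mul a b ha hb iha ihb =>
        rw [hψ.mul a ha b hb, ← iha, ← ihb]
        exact map_mul s ⟨a, ha⟩ ⟨b, hb⟩
      | inv a ha ih => rw [hψ.inv ha, ← ih]; exact map_inv s ⟨a, ha⟩
    rw [← key a (hG.le ha)]
    exact hfix ⟨a, hG.le ha⟩ ha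
  refine le_antisymm hle ?_
  have hH : IsTwist cert_E6 graphSigmaE6 (graphTwist graphEtaE6 2) (fixedSub hψ) :=
    ⟨fun a ha => ha.1, fun r => by rw [hη]; simp, σ, hσ, fun g hg => hg.2⟩
  have hc := bnChecksE6
  simp only [Bool.and_eq_true, List.all_eq_true, List.mem_range, beq_iff_eq] at hc
  obtain ⟨⟨⟨⟨⟨⟨⟨⟨hρ, hN⟩, hl⟩, -⟩, -⟩, -⟩, -⟩, -⟩, -⟩ := hc
  have hm := neg_one_pow_primePow hq two_ne_zero hK'
  have hU : fixedSub hψ ⊓ chevE6.posUnipotent K ≤ twistedE6 K 2 :=
    full_of_card hle ((card_unipotentE6_of_le hq hK' hH hle).trans (card_unipotentE6 hq hK').symm)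
  obtain ⟨φ', hP⟩ := fixedPts_of_isTwist fullE6 hH hρ
    (fun r hr c hc => graphTwist_neg graphEtaE6_sign hm (intEqb_eq (hl r hr)) hc)
    (fun H hT hle' => (full_of_card (hle.trans hle') ((card_unipotentE6_of_le hq hK' hT (hle.trans hle')).trans
      (card_unipotentE6 hq hK').symm)).trans hle) rhoP rho_val
  obtain ⟨ρ', φ'', hP', hJ'⟩ := fixedDataE6 hq hK'
  have hJ : OrbitData fullE6 rhoP (fixedSub hψ) (nodeSets chevE6 [[1], [3], [0, 5], [2, 4]]) :=
    orbitData_of_check fullE6 rho_val hN fun L hL => by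
      obtain ⟨y, hy, hy1, hyJ⟩ := hJ'.low _ ⟨L, hL, rfl⟩
      exact ⟨y, hle hy, hy1, hyJ⟩
  -- the torus
  have htor : chevE6.diagonalSubgroup K ⊓ fixedSub hψ ≤ twistedE6 K 2 := by
    have hcard : Nat.card ↥(chevE6.diagonalSubgroup K ⊓ twistedE6 K 2) = 3 := by
      have := card_torusE6 hq hK'
      rw [show Nat.gcd 3 (2 + 1) = 3 from rfl, show (2 - 1) ^ 4 * (2 + 1) ^ 2 = 3 * 3 from rfl] at this
      omega
    have hsub : chevE6.diagonalSubgroup K ⊓ twistedE6 K 2 ≤ chevE6.diagonalSubgroup K ⊓ fixedSub hψ :=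
      inf_le_inf_left _ hle
    suffices Nat.card ↥(chevE6.diagonalSubgroup K ⊓ fixedSub hψ) ≤ 3 by
      rw [← Subgroup.eq_of_le_of_card_ge hsub (by rw [hcard]; exact this)]
      exact inf_le_right
    have hU3 : Fintype.card Kˣ = 3 := by rw [Fintype.card_units, hK]
    have hp3 : ∀ x : Kˣ, x ^ 3 = 1 := fun x => by rw [← hU3]; exact pow_card_eq_one
    let f : ↥(chevE6.diagonalSubgroup K ⊓ fixedSub hψ) → K := fun a =>
      ((a : M K) : Matrix chevE6.Idx chevE6.Idx K) (Sum.inr (smp cert_E6 (0 : Fin 6))) (Sum.inr (smp cert_E6 (0 : Fin 6)))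
    have hf0 : ∀ a, f a ≠ 0 := by
      intro a
      obtain ⟨c, hc⟩ : ∃ c, torusHom chevE6 K c = (a : M K) := by
        simpa [diagonalSubgroup_eq_range fullE6] using a.2.1
      simp [f, ← hc, coe_torusHom]
    have hinj : Function.Injective (fun a => Units.mk0 (f a) (hf0 a)) := by
      intro a b hab
      have e : f a = f b := congrArg Units.val hab
      obtain ⟨c, hc⟩ : ∃ c, torusHom chevE6 K c = (a : M K) := by
        simpa [diagonalSubgroup_eq_range fullE6] using a.2.1
      obtain ⟨c', hc'⟩ : ∃ c', torusHom chevE6 K c' = (b : M K) := by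
        simpa [diagonalSubgroup_eq_range fullE6] using b.2.1
      refine Subtype.ext ?_
      rw [← hc, ← hc', ← mul_inv_eq_one, ← map_inv, ← map_mul]
      set d := c * c'⁻¹ with hd
      have hdH : torusHom chevE6 K d ∈ fixedSub hψ := by
        rw [hd, map_mul, map_inv, hc, hc']
        exact mul_mem a.2.2 (inv_mem b.2.2)
      have d0 : chi chevE6 (chevE6.simple 0) d = 1 := by
        rw [hd, map_mul, map_inv, mul_inv_eq_one]
        simp only [f, ← hc, ← hc', coe_torusHom, Matrix.diagonal_apply_eq, Sum.elim_inr] at e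
        exact Units.ext e
      have hrel : ∀ j : Fin 6, ∀ j' : Fin 6, graphSigmaE6 (chevE6.simple j) = chevE6.simple j' →
          chi chevE6 (chevE6.simple j') d = chi chevE6 (chevE6.simple j) d ^ 2 := by
        intro j j' e1
        have f1 := fixed_chi fullE6 hH hdH (fullE6.cert.wf.simple_lt j j.isLt)
          (e1 ▸ fullE6.cert.wf.simple_lt j' j'.isLt)
        rw [hη, hη, e1, one_pow, mul_one] at f1
        exact Units.ext (by rw [Units.val_pow_eq_pow_val]; exact f1)
      have hfixp : ∀ x : Kˣ, x = x ^ 2 → x = 1 := fun x hx => by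
        have h2 : x * 1 = x * x := by rw [mul_one, ← sq, ← hx]
        exact (mul_left_cancel h2).symm
      have s5 := hrel 0 5 (by decide +kernel)
      have s4 := hrel 2 4 (by decide +kernel)
      have s1 := hfixp _ (hrel 1 1 (by decide +kernel))
      have s3 := hfixp _ (hrel 3 3 (by decide +kernel))
      obtain ⟨u0, u1, u2, u3, u4, u5⟩ := chi_simpleE6 d
      have i0 : chevE6.simple 0 = e6p1 ∧ chevE6.simple 1 = e6p2 ∧ chevE6.simple 2 = e6p3 ∧
          chevE6.simple 3 = e6p4 ∧ chevE6.simple 4 = e6p5 ∧ chevE6.simple 5 = e6p6 := by decide +kernel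
      obtain ⟨i0, i1, i2, i3, i4, i5⟩ := i0
      change chi chevE6 (chevE6.simple 5) d = chi chevE6 (chevE6.simple 0) d ^ 2 at s5
      change chi chevE6 (chevE6.simple 4) d = chi chevE6 (chevE6.simple 2) d ^ 2 at s4
      change chi chevE6 (chevE6.simple 1) d = 1 at s1
      change chi chevE6 (chevE6.simple 3) d = 1 at s3
      rw [d0, one_pow] at s5
      rw [i0, u0, mul_inv_eq_one] at d0
      rw [i5, u5, inv_mul_eq_one] at s5
      rw [i1, u1, mul_inv_eq_one] at s1
      have e2 : chi chevE6 (chevE6.simple 2) d = (d (3 : Fin 6))⁻¹ := by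
        rw [i2, u2, ← d0, ← pow_mul, pow_succ _ 3, hp3, one_mul, inv_mul_cancel, one_mul]
      have e4 : chi chevE6 (chevE6.simple 4) d = (d (3 : Fin 6))⁻¹ := by
        rw [i4, u4, s5, ← pow_mul, pow_succ _ 3, hp3, one_mul, mul_inv_cancel_right]
      rw [e2, e4] at s4
      have e3 := hfixp _ s4
      have hall : ∀ j : Fin chevE6.rank, chi chevE6 (chevE6.simple j) d = 1 := by
        intro j
        change Fin 6 at j
        fin_cases j
        · show chi chevE6 (chevE6.simple 0) d = 1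
          rw [i0, u0, d0, mul_inv_cancel]
        · show chi chevE6 (chevE6.simple 1) d = 1
          rw [i1, u1, s1, mul_inv_cancel]
        · exact e2.trans e3
        · exact s3
        · exact e4.trans e3
        · show chi chevE6 (chevE6.simple 5) d = 1
          rw [i5, u5, s5, inv_mul_cancel]
      rw [CfsgLib.Twisted.torusHom_ext fullE6 (d := 1) fun j => by rw [hall, map_one]]
      exact map_one _
    exact (Nat.card_le_card_of_injective _ hinj).trans (by rw [Nat.card_eq_fintype_card, hU3])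
  intro a ha
  obtain ⟨u, n, u', huG, huU, hn, hnN, hu', hu'U, rfl, -⟩ := hP.exists_form ha
  refine mul_mem (mul_mem (hU ⟨huG, huU⟩) ?_) (hU ⟨hu', hu'U⟩)
  refine hP.monomial_induction hJ (fun t ht htd => htor ⟨htd, ht⟩) (fun J hJm => ?_) hn hnN
  obtain ⟨s, hs1, hs2⟩ := hP'.exists_rep hJ' hJm
  exact ⟨s, ⟨hle hs1, hs2⟩, hs1⟩

/-- The fixed points of the endomorphism over sixteen elements are the image of `²E₆(2)`. -/
theorem fixed_iff (hK : Fintype.card K = 4) (hF : Fintype.card F = 16) {φ : M F → M F} (hφ : Endo φ) (i : K →+* F)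
    (hi : ∀ y : F, y ^ 4 = y → ∃ x, i x = y) {g : M F} :
    g ∈ chevE6.group F ∧ φ g = g ↔ g ∈ (twistedE6 K 2).map (push chevE6 i) := by
  obtain ⟨ψ, hψ⟩ := exists_endo (F := K) (n := 2) two_ne_zero hK
  rw [twisted_eq_fixed hK hψ, Subgroup.mem_map]
  constructor
  · rintro ⟨hg, hfix⟩
    have h4 : push chevE6 (iterateFrobenius F 2 2) g = g := by
      rw [← hφ.twice _ (fun t => by rw [iterateFrobenius_def]; norm_num) hg, hfix, hfix]
    obtain ⟨y, hy, rfl⟩ := mem_range_of_fixed hF i hi hg h4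
    refine ⟨y, ⟨hy, ?_⟩, rfl⟩
    exact push_injective i (by rw [← endo_push hφ hψ i hy, hfix])
  · rintro ⟨y, ⟨hy, hfix⟩, rfl⟩
    exact ⟨push_mem_group cert_E6 i hy, by rw [endo_push hφ hψ i hy, hfix]⟩

end CfsgLib.TwistedE6Five
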