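import Cfsg.Agent.Lib.TwistedE6Five.Endo
import Cfsg.Agent.Lib.Twisted.TorusFixed
import Cfsg.Agent.Lib.Chevalley.TwistedTorusCentralizer

/-! Torus and monomial elements under a twist. -/

set_option autoImplicit false
set_option maxRecDepth 100000
set_option linter.unusedSectionVars false

open Cfsg.Lie CfsgLib.Chevalley CfsgLib.Chevalley.Twist

namespace CfsgLib.TwistedE6Five

variable {F : Type*} [Field F] [CharP F 2]

/-- The torus element. -/
noncomputable abbrev T (c : Fin chevE6.rank → Fˣ) : M F := torusHom chevE6 F c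

theorem T_mem (c : Fin chevE6.rank → Fˣ) : T c ∈ chevE6.group F :=
  diagonal_le_group cert_E6 (torus_mem_diagonal h6 c)

theorem T_conj (c : Fin chevE6.rank → Fˣ) (s : Fin chevE6.nroots) (t : F) :
    T c * X s t * (T c)⁻¹ = X s ((chi chevE6 s c : F) * t) :=
  (acts_torus cert_E6 c).conj s t

theorem chi_eq_of_T {c c' : Fin chevE6.rank → Fˣ} (h : T c = T c') (s : Fin chevE6.nroots) :
    chi chevE6 s c = chi chevE6 s c' := by
  have e := congrArg (fun g : M F => (g : Matrix chevE6.Idx chevE6.Idx F) (Sum.inr s) (Sum.inr s)) h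
  simp only [coe_torusHom, Matrix.diagonal_apply_eq, Sum.elim_inr] at e
  exact Units.ext e

theorem X_injective {r : Fin chevE6.nroots} {a b : F} (h : X r a = X r b) : a = b :=
  CfsgLib.Chevalley.xG_injective cert_E6 r.isLt h

/-- A monomial element centralising the root elements of parameter one is trivial. -/
theorem eq_one_of_conj {m : M F} (hm : m ∈ chevE6.monomialSubgroup F)
    (h : ∀ u : Fin chevE6.nroots, m * X u 1 * m⁻¹ = X u 1) : m = 1 := by
  obtain ⟨π, η, hA⟩ := exists_acts h6 hm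
  have h1 : ∀ u, π u = u ∧ η u = 1 := fun u => by
    have e := (hA.conj u 1).symm.trans (h u)
    rw [mul_one] at e
    have hπ := CfsgLib.Twisted.root_eq_of_xG_eq h6 (hA.ne_zero u) e
    refine ⟨hπ, ?_⟩
    rw [hπ] at e
    exact X_injective e
  have hd := mem_diagonal_of_perm h6 hm hA fun i => by rw [(h1 _).1]; exact h6.simple_pos i.isLt
  rw [diagonalSubgroup_eq_range h6] at hd
  obtain ⟨c, rfl⟩ := hd
  have hc : ∀ s : Fin chevE6.nroots, chi chevE6 s c = 1 := fun s => by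
    have e := (T_conj c s 1).symm.trans (h s)
    rw [mul_one] at e
    exact Units.ext (X_injective e)
  rw [torusHom_eq_of_chi (c' := 1) fun s => by rw [hc, map_one]]
  exact map_one _

variable {φ : M F → M F} {g n : M F} {τ : Equiv.Perm (Fin chevE6.nroots)}

theorem tw_mem (hφ : Endo φ) (hf : Frame φ g n τ) {a : M F} (ha : a ∈ chevE6.group F) :
    tw φ n a ∈ chevE6.group F :=
  mul_mem (mul_mem hf.n_mem (hφ.mem ha)) (inv_mem hf.n_mem)

theorem tw_monomial (hφ : Endo φ) (hf : Frame φ g n τ) {a : M F} (ha : a ∈ chevE6.monomialSubgroup F) :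
    tw φ n a ∈ chevE6.monomialSubgroup F :=
  mul_mem (mul_mem hf.n_mono (hφ.monomial ha)) (inv_mem hf.n_mono)

/-- The twist of a torus element. -/
theorem tw_torus (hφ : Endo φ) (hf : Frame φ g n τ) (c : Fin chevE6.rank → Fˣ) :
    ∃ c', tw φ n (T c) = T c' ∧ ∀ s, chi chevE6 (τ s : Fin chevE6.nroots) c' = chi chevE6 s c ^ 2 := by
  have hd : tw φ n (T c) ∈ chevE6.diagonalSubgroup F :=
    monomial_conj_diagonal h6 hf.n_mono (hφ.diagonal (torus_mem_diagonal h6 c))
  rw [diagonalSubgroup_eq_range h6] at hd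
  obtain ⟨c', hc'⟩ := hd
  refine ⟨c', hc'.symm, fun s => ?_⟩
  have hx := CfsgLib.Chevalley.xG_mem_group (F := F) cert_E6 (s : ℕ) (1 : F)
  have e := congrArg (tw φ n) (T_conj c s 1)
  rw [tw_mul hφ (mul_mem (T_mem c) hx) (inv_mem (T_mem c)), tw_mul hφ (T_mem c) hx, tw_inv hφ (T_mem c), ← hc',
    hf.x, hf.x, T_conj, one_pow, mul_one, mul_one] at e
  exact Units.ext (by rw [Units.val_pow_eq_pow_val]; exact X_injective e)

theorem tw_torus_fix (hφ : Endo φ) (hf : Frame φ g n τ) {c : Fin chevE6.rank → Fˣ}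
    (hc : ∀ s, chi chevE6 (τ s : Fin chevE6.nroots) c = chi chevE6 s c ^ 2) : tw φ n (T c) = T c := by
  obtain ⟨c', e, h⟩ := tw_torus hφ hf c
  rw [e]
  refine torusHom_eq_of_chi fun u => ?_
  obtain ⟨s, rfl⟩ := τ.surjective u
  rw [h, hc]

theorem chi_of_tw_torus (hφ : Endo φ) (hf : Frame φ g n τ) {c : Fin chevE6.rank → Fˣ}
    (hc : tw φ n (T c) = T c) (s : Fin chevE6.nroots) :
    chi chevE6 (τ s : Fin chevE6.nroots) c = chi chevE6 s c ^ 2 := by
  obtain ⟨c', e, h⟩ := tw_torus hφ hf c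
  rw [← h s, chi_eq_of_T (hc.symm.trans e)]

/-- The root permutation of the twist of a monomial element. -/
theorem tw_acts (hφ : Endo φ) (hf : Frame φ g n τ) {m : M F} {π : Equiv.Perm (Fin chevE6.nroots)}
    {η : Fin chevE6.nroots → F} (hm : m ∈ chevE6.monomialSubgroup F) (hA : Acts cert_E6 m π η)
    {π' : Equiv.Perm (Fin chevE6.nroots)} {η' : Fin chevE6.nroots → F}
    (hA' : Acts cert_E6 (tw φ n m) π' η') (s : Fin chevE6.nroots) : π' (τ s) = τ (π s) := by
  have hmG := monomial_le_group cert_E6 hm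
  have hx := CfsgLib.Chevalley.xG_mem_group (F := F) cert_E6 (s : ℕ) (1 : F)
  have e := congrArg (tw φ n) (hA.conj s 1)
  rw [tw_mul hφ (mul_mem hmG hx) (inv_mem hmG), tw_mul hφ hmG hx, tw_inv hφ hmG, hf.x, hf.x, hA'.conj,
    one_pow, mul_one] at e
  exact CfsgLib.Twisted.root_eq_of_xG_eq h6 (hA'.ne_zero _) e

/-- A product of fundamental monomial elements whose permutation commutes with the twist is fixed. -/
theorem tw_nW_fix (hφ : Endo φ) (hf : Frame φ g n τ) (l : List (Fin chevE6.rank))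
    (hl : ∀ s, wPerm cert_E6 l (τ s) = τ (wPerm cert_E6 l s)) : tw φ n (nW cert_E6 F l) = nW cert_E6 F l := by
  have hm : nW cert_E6 F l ∈ chevE6.monomialSubgroup F := nW_mem_monomial h6 l
  have hmG := monomial_le_group cert_E6 hm
  rw [eq_comm, ← inv_mul_eq_one]
  refine eq_one_of_conj (mul_mem (inv_mem hm) (tw_monomial hφ hf hm)) fun u => ?_
  obtain ⟨s, rfl⟩ := τ.surjective u
  have hx := CfsgLib.Chevalley.xG_mem_group (F := F) cert_E6 (s : ℕ) (1 : F)
  have e := congrArg (tw φ n) (nW_conj l s (1 : F))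
  rw [tw_mul hφ (mul_mem hmG hx) (inv_mem hmG), tw_mul hφ hmG hx, tw_inv hφ hmG, hf.x, hf.x, ← hl s,
    one_pow, ← nW_conj l (τ s) (1 : F)] at e
  rw [_root_.mul_inv_rev, inv_inv]
  calc (nW cert_E6 F l)⁻¹ * tw φ n (nW cert_E6 F l) * X (τ s : Fin chevE6.nroots) 1 *
        ((tw φ n (nW cert_E6 F l))⁻¹ * nW cert_E6 F l)
      = (nW cert_E6 F l)⁻¹ * (tw φ n (nW cert_E6 F l) * X (τ s : Fin chevE6.nroots) 1 *
        (tw φ n (nW cert_E6 F l))⁻¹) * nW cert_E6 F l := by group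
    _ = X (τ s : Fin chevE6.nroots) 1 := by rw [e]; group

theorem rootsU_tw (hφ : Endo φ) (hf : Frame φ g n τ) {S : Set ℕ} (hS : ∀ r ∈ S, r < chevE6.nroots)
    (hτ : ∀ r : Fin chevE6.nroots, (r : ℕ) ∈ S → τ r = r) {v : M F} (hv : v ∈ rootsU chevE6 F S) :
    tw φ n v ∈ rootsU chevE6 F S := by
  induction hv using rootsU_induction cert_E6 with
  | h1 => rw [tw_one hφ]; exact one_mem _
  | hx r hr t =>
    rw [hf.x ⟨r, hS r hr⟩ t, hτ ⟨r, hS r hr⟩ hr]
    exact xG_mem_rootsU cert_E6 hr _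
  | hmul a b ha hb iha ihb =>
    rw [tw_mul hφ (rootsU_le_group cert_E6 _ ha) (rootsU_le_group cert_E6 _ hb)]
    exact mul_mem iha ihb

theorem prodU_mem (L : List ℕ) (t : ℕ → F) : prodU cert_E6 L t ∈ chevE6.group F :=
  Subgroup.list_prod_mem _ fun x hx => by
    obtain ⟨r, -, rfl⟩ := List.mem_map.1 hx
    exact CfsgLib.Chevalley.xG_mem_group cert_E6 r _

theorem tw_prodU (hφ : Endo φ) (hf : Frame φ g n τ) (L : List ℕ) (hL : ∀ r ∈ L, r < chevE6.nroots)
    (hτ : ∀ r : Fin chevE6.nroots, (r : ℕ) ∈ L → τ r = r) (t : ℕ → F) :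
    tw φ n (prodU cert_E6 L t) = prodU cert_E6 L fun r => t r ^ 2 := by
  induction L with
  | nil => exact tw_one hφ n
  | cons k L ih =>
    rw [prodU_cons, prodU_cons, tw_mul hφ (CfsgLib.Chevalley.xG_mem_group cert_E6 _ _) (prodU_mem L t),
      hf.x ⟨k, hL k (by simp)⟩, hτ ⟨k, hL k (by simp)⟩ (by simp),
      ih (fun r hr => hL r (by simp [hr])) fun r hr => hτ r (by simp [hr])]

/-- A twist fixed element is conjugate into the fixed points of the endomorphism. -/
theorem fix_iff (hφ : Endo φ) (hf : Frame φ g n τ) {a : M F} (ha : a ∈ chevE6.group F) :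
    φ (g * a * g⁻¹) = g * a * g⁻¹ ↔ tw φ n a = a := by
  rw [hφ.mul _ (mul_mem hf.g_mem ha) _ (inv_mem hf.g_mem), hφ.mul _ hf.g_mem _ ha, hφ.inv hf.g_mem, hf.eq,
    show g * n * φ a * (g * n)⁻¹ = g * tw φ n a * g⁻¹ by simp only [tw]; group]
  exact ⟨fun h => mul_left_cancel (mul_right_cancel h), fun h => by rw [h]⟩

/-- Torus elements with given exponents. -/
noncomputable def hT (e : List ℕ) (ζ : Fˣ) : Fin chevE6.rank → Fˣ := fun k => ζ ^ e.getD k 0

theorem chi_hT {e v : List ℕ} {s : Fin chevE6.nroots}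
    (h : (∑ k : Fin chevE6.rank, ((e.getD k 0 : ℕ) : ℤ) * chevE6.cartan k s) % 5 = (v.getD s 0 : ℕ)) {ζ : Fˣ}
    (hζ : orderOf ζ = 5) : chi chevE6 s (hT e ζ) = ζ ^ v.getD s 0 := by
  have e1 : chi chevE6 s (hT e ζ) =
      ζ ^ (∑ k : Fin chevE6.rank, ((e.getD k 0 : ℕ) : ℤ) * chevE6.cartan k s) := by
    show ∏ k : Fin chevE6.rank, (ζ ^ e.getD k 0) ^ chevE6.cartan k s = _
    generalize (Finset.univ : Finset (Fin chevE6.rank)) = U
    induction U using Finset.induction with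
    | empty => simp
    | insert i S hi ih =>
      rw [Finset.sum_insert hi, Finset.prod_insert hi, _root_.zpow_add, _root_.zpow_mul, zpow_natCast, ih]
  have h5 : ((5 : ℕ) : ℤ) = 5 := rfl
  rw [e1, ← zpow_mod_orderOf, hζ, h5, h, zpow_natCast]

end CfsgLib.TwistedE6Five
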