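import Cfsg.Agent.Lib.TwistedE6Five.Centralizer
import Cfsg.Agent.Lib.TwistedE6Five.Fixed
import Cfsg.Agent.Lib.TwistedOrder.Instances
import Cfsg.Agent.Lib.InvChar.GLFourTwo
import Mathlib.GroupTheory.Sylow

/-!
All elements of order five of `²E₆(2)` are conjugate, and their centralisers are `5 × A₈`.
-/

set_option autoImplicit false
set_option maxRecDepth 100000
set_option linter.unusedSectionVars false

open Cfsg.Lie CfsgLib.Chevalley CfsgLib.Chevalley.Twist CfsgLib.ReflectionsSpinor.ChevField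

namespace CfsgLib.TwistedE6Five

variable {F : Type*} [Field F] [CharP F 2]

theorem chi_hT_five {e v : List ℕ} {s : Fin chevE6.nroots}
    (h : (∑ k : Fin chevE6.rank, ((e.getD k 0 : ℕ) : ℤ) * chevE6.cartan k s) % 5 = (v.getD s 0 : ℕ)) {x : Fˣ}
    (hx : x ^ 5 = 1) : chi chevE6 s (hT e x) = x ^ v.getD s 0 := by
  by_cases h1 : x = 1
  · subst h1
    have : hT e (1 : Fˣ) = 1 := funext fun k => one_pow _
    rw [this, map_one, one_pow]
  · haveI : Fact (Nat.Prime 5) := ⟨by norm_num⟩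
    exact chi_hT h (orderOf_eq_prime hx h1)

/-- The torus of order twenty five. -/
noncomputable def cB (x y : Fˣ) : Fin chevE6.rank → Fˣ := hT expB1 x * hT expB2 y

theorem chi_cB {x y : Fˣ} (hx : x ^ 5 = 1) (hy : y ^ 5 = 1) (s : Fin chevE6.nroots) :
    chi chevE6 s (cB x y) = x ^ valB1.getD s 0 * y ^ valB2.getD s 0 := by
  rw [cB, map_mul, chi_hT_five (valB_spec s).2.2.1 hx, chi_hT_five (valB_spec s).2.2.2.1 hy]

theorem pow_mod_five {x : Fˣ} (hx : x ^ 5 = 1) (m : ℕ) : x ^ (m % 5) = x ^ m :=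
  (pow_eq_pow_mod m hx).symm

theorem cB_twist {x y : Fˣ} (hx : x ^ 5 = 1) (hy : y ^ 5 = 1) (s : Fin chevE6.nroots) :
    chi chevE6 (tB s : Fin chevE6.nroots) (cB x y) = chi chevE6 s (cB x y) ^ 2 := by
  rw [chi_cB hx hy, chi_cB hx hy, tB_eq, (valB_spec s).2.2.2.2.1, (valB_spec s).2.2.2.2.2, pow_mod_five hx,
    pow_mod_five hy, mul_pow, ← pow_mul, ← pow_mul, mul_comm 2, mul_comm 2]

theorem cB_one {x y : Fˣ} (hx : x ^ 5 = 1) (hy : y ^ 5 = 1) (h : T (cB x y) = 1) : x = 1 ∧ y = 1 := by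
  have h' : T (cB x y) = T (1 : Fin chevE6.rank → Fˣ) := h.trans (map_one _).symm
  have e1 := chi_eq_of_T h' (⟨56, by decide +kernel⟩ : Fin chevE6.nroots)
  have e2 := chi_eq_of_T h' (⟨46, by decide +kernel⟩ : Fin chevE6.nroots)
  rw [chi_cB hx hy, map_one] at e1 e2
  obtain ⟨a, b, c, d⟩ := valB_simple
  simp only [a, b, c, d, pow_one, pow_zero, mul_one, one_mul] at e1 e2
  exact ⟨e1, e2⟩

variable {K : Type*} [Field K] [Fintype K] [CharP K 2] [Fintype F]

theorem main (hK : Fintype.card K = 4) (hF : Fintype.card F = 16) (i : K →+* F)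
    (hi : ∀ y : F, y ^ 4 = y → ∃ x, i x = y) :
    (∀ x y : ↥(twistedE6 K 2), orderOf x = 5 → orderOf y = 5 → IsConj x y) ∧
      ∀ x : ↥(twistedE6 K 2), orderOf x = 5 →
        Nonempty (↥(Subgroup.centralizer ({x} : Set ↥(twistedE6 K 2))) ≃*
          (Multiplicative (ZMod 5) × ↥(alternatingGroup (Fin 8)))) := by
  classical
  haveI : Fact (Nat.Prime 5) := ⟨by norm_num⟩
  set G := twistedE6 K 2 with hG
  obtain ⟨φ, hφ⟩ := exists_endo (F := F) (n := 4) (by norm_num) hF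
  obtain ⟨gA, nA, hA⟩ := exists_frame hφ hF _ stepsA_ok
  obtain ⟨gB, nB, hB⟩ := exists_frame hφ hF _ stepsB_ok
  change Frame φ gA nA tA at hA
  change Frame φ gB nB tB at hB
  let emb : ↥G →* M F := (push chevE6 i).comp G.subtype
  have hemb : Function.Injective emb := (push_injective i).comp Subtype.val_injective
  -- lifting twist fixed elements
  have lift : ∀ {g n : M F} {τ : Equiv.Perm (Fin chevE6.nroots)}, Frame φ g n τ → ∀ a ∈ chevE6.group F,
      tw φ n a = a → ∃ y : ↥G, emb y = g * a * g⁻¹ := by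
    intro g n τ hf a ha hfix
    obtain ⟨y, hy, e⟩ := (fixed_iff hK hF hφ i hi).1
      ⟨mul_mem (mul_mem hf.g_mem ha) (inv_mem hf.g_mem), (fix_iff hφ hf ha).2 hfix⟩
    exact ⟨⟨y, hy⟩, e⟩
  have back : ∀ {g n : M F} {τ : Equiv.Perm (Fin chevE6.nroots)}, Frame φ g n τ → ∀ y : ↥G,
      g⁻¹ * emb y * g ∈ chevE6.group F ∧ tw φ n (g⁻¹ * emb y * g) = g⁻¹ * emb y * g := by
    intro g n τ hf y
    obtain ⟨h1, h2⟩ := (fixed_iff hK hF hφ i hi).2 ⟨y, y.2, rfl⟩
    have ha : g⁻¹ * emb y * g ∈ chevE6.group F := mul_mem (mul_mem (inv_mem hf.g_mem) h1) hf.g_mem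
    refine ⟨ha, (fix_iff hφ hf ha).1 ?_⟩
    rw [show g * (g⁻¹ * emb y * g) * g⁻¹ = emb y by group]
    exact h2
  obtain ⟨ζ, hζ⟩ : ∃ ζ : Fˣ, orderOf ζ = 5 :=
    exists_prime_orderOf_dvd_card 5 (by rw [Fintype.card_units, hF]; norm_num)
  have hζ5 : ζ ^ 5 = 1 := hζ ▸ pow_orderOf_eq_one ζ
  set μ := Subgroup.zpowers ζ with hμ
  have hμ5 : ∀ z : ↥μ, (z : Fˣ) ^ 5 = 1 := fun z => by
    obtain ⟨j, e⟩ := Subgroup.mem_zpowers_iff.1 z.2
    rw [← e, ← zpow_natCast, ← _root_.zpow_mul, mul_comm, _root_.zpow_mul, zpow_natCast, hζ5, one_zpow]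
  have hμcard : Nat.card ↥μ = 5 := by rw [Nat.card_zpowers, hζ]
  -- the torus of order twenty five
  let ψ : ↥μ × ↥μ →* M F :=
    { toFun := fun p => gB * T (cB (p.1 : Fˣ) (p.2 : Fˣ)) * gB⁻¹
      map_one' := by
        have : cB ((1 : ↥μ) : Fˣ) ((1 : ↥μ) : Fˣ) = (1 : Fin chevE6.rank → Fˣ) :=
          funext fun k => by simp [cB, hT]
        simp only [Prod.fst_one, Prod.snd_one]
        rw [this, show T (1 : Fin chevE6.rank → Fˣ) = 1 from map_one _, mul_one, mul_inv_cancel]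
      map_mul' := fun p q => by
        have : cB ((p * q).1 : Fˣ) ((p * q).2 : Fˣ) = cB (p.1 : Fˣ) (p.2 : Fˣ) * cB (q.1 : Fˣ) (q.2 : Fˣ) :=
          funext fun k => by
            simp only [cB, hT, Pi.mul_apply, Prod.fst_mul, Prod.snd_mul, Subgroup.coe_mul, mul_pow]
            exact mul_mul_mul_comm _ _ _ _
        rw [this, show T (cB (p.1 : Fˣ) (p.2 : Fˣ) * cB (q.1 : Fˣ) (q.2 : Fˣ)) = _ from map_mul _ _ _]
        group }
  have hψinj : Function.Injective ψ := by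
    intro p q h
    rw [← mul_inv_eq_one]
    have e : ψ (p * q⁻¹) = 1 := by rw [map_mul, h, ← map_mul, mul_inv_cancel, map_one]
    obtain ⟨e1, e2⟩ := cB_one (hμ5 (p * q⁻¹).1) (hμ5 (p * q⁻¹).2) (conj_eq_one_iff.1 e)
    exact Prod.ext (Subtype.ext e1) (Subtype.ext e2)
  have hψmem : ∀ p, ∃ y : ↥G, emb y = ψ p := fun p =>
    lift hB _ (T_mem _) (tw_torus_fix hφ hB fun s => cB_twist (hμ5 p.1) (hμ5 p.2) s)
  choose tor htor using hψmem
  let torH : ↥μ × ↥μ →* ↥G :=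
    MonoidHom.mk' tor fun p q => hemb (by rw [map_mul, htor, htor, htor, map_mul])
  have htorinj : Function.Injective torH := fun p q h => hψinj (by
    rw [← htor, ← htor]; exact congrArg emb h)
  let P := torH.range
  have hPcard : Nat.card ↥P = 5 ^ 2 := by
    rw [← Nat.card_congr (MonoidHom.ofInjective htorinj).toEquiv, Nat.card_prod, hμcard]
    rfl
  -- it is a Sylow subgroup
  obtain ⟨S, hS⟩ := (IsPGroup.of_card hPcard).exists_le_sylow
  have hSP : (S : Subgroup ↥G) = P := by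
    obtain ⟨k, hk⟩ := IsPGroup.iff_card.1 S.2
    refine (Subgroup.eq_of_le_of_card_ge hS ?_).symm
    rw [hPcard, hk]
    refine Nat.pow_le_pow_right (by norm_num) ?_
    by_contra hk2
    have h1 : 5 ^ 3 ∣ Nat.card ↥G :=
      (pow_dvd_pow 5 (by omega : 3 ≤ k)).trans (hk ▸ Subgroup.card_subgroup_dvd_card _)
    have hq : IsPrimePow 2 := Nat.prime_two.isPrimePow
    have hc := CfsgLib.TwistedOrder.card_twistedE6 hq (hK : Fintype.card K = 2 ^ 2)
      (CfsgLib.Twisted.card_torusE6 hq (hK : Fintype.card K = 2 ^ 2))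
    have h3 := Dvd.dvd.mul_left h1 (Nat.gcd 3 (2 + 1))
    rw [hG] at h3
    rw [hc] at h3
    revert h3
    norm_num
  let c₁ : ↥μ := ⟨ζ, Subgroup.mem_zpowers ζ⟩
  let y₀ : ↥G := torH (c₁, 1)
  -- every element of order five is conjugate to one
  have hconj : ∀ x : ↥G, orderOf x = 5 → IsConj x y₀ := by
    intro x hx
    obtain ⟨S', hS'⟩ := (IsPGroup.of_card (n := 1)
      (show Nat.card ↥(Subgroup.zpowers x) = 5 ^ 1 by rw [Nat.card_zpowers, hx, pow_one])).exists_le_sylow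
    obtain ⟨z, hz⟩ := MulAction.exists_smul_eq ↥G S' S
    have hxP : z * x * z⁻¹ ∈ P := by
      rw [← hSP, ← hz]
      exact Subgroup.smul_mem_pointwise_smul x (MulAut.conj z) _ (hS' (Subgroup.mem_zpowers x))
    obtain ⟨⟨p₁, p₂⟩, hp⟩ := hxP
    refine (isConj_iff.2 ⟨z, hp.symm⟩ : IsConj x (torH (p₁, p₂))).trans ?_
    have hne : ¬ (p₁ = 1 ∧ p₂ = 1) := by
      rintro ⟨rfl, rfl⟩
      rw [show ((1 : ↥μ), (1 : ↥μ)) = 1 from rfl, map_one, eq_comm, conj_eq_one_iff] at hp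
      rw [hp, orderOf_one] at hx
      norm_num at hx
    obtain ⟨a, e1⟩ : ∃ a : Fin 5, (p₁ : Fˣ) = ζ ^ (a : ℕ) := by
      obtain ⟨j, e⟩ := Subgroup.mem_zpowers_iff.1 p₁.2
      refine ⟨⟨(j % 5).toNat, by omega⟩, ?_⟩
      rw [← e, ← zpow_natCast]
      show ζ ^ j = ζ ^ (((j % 5).toNat : ℕ) : ℤ)
      rw [Int.toNat_of_nonneg (Int.emod_nonneg _ (by norm_num)), ← zpow_mod_orderOf, hζ]
      rfl
    obtain ⟨b, e2⟩ : ∃ b : Fin 5, (p₂ : Fˣ) = ζ ^ (b : ℕ) := by
      obtain ⟨j, e⟩ := Subgroup.mem_zpowers_iff.1 p₂.2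
      refine ⟨⟨(j % 5).toNat, by omega⟩, ?_⟩
      rw [← e, ← zpow_natCast]
      show ζ ^ j = ζ ^ (((j % 5).toNat : ℕ) : ℤ)
      rw [Int.toNat_of_nonneg (Int.emod_nonneg _ (by norm_num)), ← zpow_mod_orderOf, hζ]
      rfl
    have hab : a ≠ 0 ∨ b ≠ 0 := by
      by_contra hcon
      push Not at hcon
      exact hne ⟨Subtype.ext (by rw [e1, hcon.1]; exact pow_zero ζ), Subtype.ext (by rw [e2, hcon.2]; exact pow_zero ζ)⟩
    set l := moves.getD (5 * (a : ℕ) + (b : ℕ)) [] with hl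
    have hmv := moves_spec.2 a b hab
    have hcomm : ∀ s, wPerm cert_E6 l (tB s) = tB (wPerm cert_E6 l s) := fun s =>
      Fin.ext (by rw [wPerm_val, tB_eq, tB_eq, wPerm_val]; exact ((hmv s).2).symm)
    obtain ⟨η, hAl⟩ := acts_nW (F := F) h6 l
    obtain ⟨w, hw⟩ := lift hB _ (monomial_le_group cert_E6 (nW_mem_monomial h6 l)) (tw_nW_fix hφ hB l hcomm)
    refine (isConj_iff.2 ⟨w, hemb ?_⟩ : IsConj y₀ (torH (p₁, p₂))).symm
    have emove : nW cert_E6 F l * T (cB ζ 1) = T (cB (p₁ : Fˣ) (p₂ : Fˣ)) * nW cert_E6 F l := by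
      refine mul_torus_eq hAl fun s => ?_
      rw [chi_cB (hμ5 p₁) (hμ5 p₂), chi_cB hζ5 (one_pow 5), wPerm_val, e1, e2, one_pow, mul_one, ← pow_mul,
        ← pow_mul, ← pow_add, ← pow_mod_five hζ5, (hmv s).1]
    show emb (w * tor (c₁, 1) * w⁻¹) = emb (tor (p₁, p₂))
    rw [map_mul, map_mul, map_inv, htor, htor, hw]
    show gB * nW cert_E6 F l * gB⁻¹ * (gB * T (cB ζ 1) * gB⁻¹) * (gB * nW cert_E6 F l * gB⁻¹)⁻¹ =
      gB * T (cB (p₁ : Fˣ) (p₂ : Fˣ)) * gB⁻¹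
    calc _ = gB * (nW cert_E6 F l * T (cB ζ 1)) * (nW cert_E6 F l)⁻¹ * gB⁻¹ := by group
      _ = _ := by rw [emove]; group
  refine ⟨fun x y hx hy => (hconj x hx).trans (hconj y hy).symm, fun x hx => ?_⟩
  -- the centraliser of the element in the first frame
  obtain ⟨xA, hxA⟩ := lift hA _ (T_mem (cA ζ)) (tw_torus_fix hφ hA fun s => chi_cA_twist hζ s)
  have hTA : orderOf (T (cA ζ)) = 5 := by
    refine orderOf_eq_prime ?_ fun h => ?_
    · show torusHom chevE6 F (cA ζ) ^ 5 = 1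
      rw [← map_pow, show cA ζ ^ 5 = 1 from funext fun k => by
        show (ζ ^ expA.getD k 0) ^ 5 = 1
        rw [← pow_mul, mul_comm, pow_mul, hζ5, one_pow], map_one]
    · have e := chi_eq_of_T (h.trans (map_one (torusHom chevE6 F)).symm) (blk 0)
      rw [map_one, chi_cA hζ, show valA.getD ((blk 0 : Fin chevE6.nroots) : ℕ) 0 = 1 by decide +kernel, pow_one] at e
      rw [e, orderOf_one] at hζ
      norm_num at hζ
  have hxA5 : orderOf xA = 5 := by
    rw [← orderOf_injective emb hemb, hxA, ← hTA]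
    exact MulEquiv.orderOf_eq (MulAut.conj gA) _
  let f : ↥(Subgroup.centralizer ({xA} : Set ↥G)) →* ↥(cent hφ nA (cA ζ)) :=
    MonoidHom.mk' (fun y => ⟨gA⁻¹ * emb y * gA, (back hA y).1, (back hA y).2, by
        have h : emb y * emb xA = emb xA * emb y := by
          rw [← map_mul, ← map_mul]
          exact congrArg emb (Subgroup.mem_centralizer_singleton_iff.1 y.2)
        rw [hxA] at h
        show T (cA ζ) * (gA⁻¹ * emb y * gA) = gA⁻¹ * emb y * gA * T (cA ζ)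
        calc _ = gA⁻¹ * (gA * T (cA ζ) * gA⁻¹ * emb y) * gA := by group
          _ = _ := by rw [← h]; group⟩)
      fun a b => Subtype.ext (by
        show gA⁻¹ * emb ((a : ↥G) * (b : ↥G)) * gA = (gA⁻¹ * emb a * gA) * (gA⁻¹ * emb b * gA)
        rw [map_mul]; group)
  have hf : Function.Bijective f := by
    refine ⟨fun a b h => Subtype.ext (hemb ?_), fun a => ?_⟩
    · exact mul_left_cancel (mul_right_cancel (congrArg Subtype.val h))
    · obtain ⟨y, hy⟩ := lift hA _ a.2.1 a.2.2.1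
      have hyc : y ∈ Subgroup.centralizer ({xA} : Set ↥G) := by
        rw [Subgroup.mem_centralizer_singleton_iff]
        refine hemb ?_
        rw [map_mul, map_mul, hy, hxA]
        calc gA * (a : M F) * gA⁻¹ * (gA * T (cA ζ) * gA⁻¹) = gA * ((a : M F) * T (cA ζ)) * gA⁻¹ := by group
          _ = _ := by rw [← a.2.2.2.eq]; group
      refine ⟨⟨y, hyc⟩, Subtype.ext ?_⟩
      show gA⁻¹ * emb y * gA = a
      rw [hy]; group
  obtain ⟨eC⟩ := cent_equiv hF hφ hA hζ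
  have eμ : ↥μ ≃* Multiplicative (ZMod 5) := mulEquivOfCyclicCardEq (by rw [hμcard]; simp)
  have eA : ↥(Subgroup.centralizer ({xA} : Set ↥G)) ≃* Multiplicative (ZMod 5) × ↥(alternatingGroup (Fin 8)) :=
    ((MulEquiv.ofBijective f hf).trans eC).trans (eμ.prodCongr CfsgLib.InvChar.GLFourTwo.equiv)
  obtain ⟨z, hz⟩ := isConj_iff.1 ((hconj x hx).trans (hconj xA hxA5).symm)
  let e1 : ↥(Subgroup.centralizer ({x} : Set ↥G)) →* ↥(Subgroup.centralizer ({xA} : Set ↥G)) :=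
    MonoidHom.mk' (fun a => ⟨z * a * z⁻¹, by
      rw [Subgroup.mem_centralizer_singleton_iff, ← hz]
      calc z * (a : ↥G) * z⁻¹ * (z * x * z⁻¹) = z * ((a : ↥G) * x) * z⁻¹ := by group
        _ = _ := by rw [Subgroup.mem_centralizer_singleton_iff.1 a.2]; group⟩)
      fun a b => Subtype.ext (by
        show z * ((a : ↥G) * (b : ↥G)) * z⁻¹ = z * a * z⁻¹ * (z * b * z⁻¹)
        group)
  have he1 : Function.Bijective e1 := by
    refine ⟨fun a b h => Subtype.ext (mul_left_cancel (mul_right_cancel (congrArg Subtype.val h))), fun a => ?_⟩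
    refine ⟨⟨z⁻¹ * a * z, ?_⟩, Subtype.ext (by show z * (z⁻¹ * (a : ↥G) * z) * z⁻¹ = a; group)⟩
    rw [Subgroup.mem_centralizer_singleton_iff]
    have h : (a : ↥G) * (z * x * z⁻¹) = z * x * z⁻¹ * (a : ↥G) := by
      rw [hz]
      exact Subgroup.mem_centralizer_singleton_iff.1 a.2
    calc z⁻¹ * (a : ↥G) * z * x = z⁻¹ * ((a : ↥G) * (z * x * z⁻¹)) * z := by group
      _ = _ := by rw [h]; group
  exact ⟨(MulEquiv.ofBijective e1 he1).trans eA⟩

end CfsgLib.TwistedE6Five
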